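import Mathlib
import Cfsg.Agent.Helper2.Monomial
import Cfsg.Agent.Helper25.CharZ
import Cfsg.Agent.Helper25.QuasiPrim
import Cfsg.Agent.Helper24.Ito
import Cfsg.Agent.Helper7.Clifford
import Cfsg.Agent.S4762
import Cfsg.Agent.S0138

/-!
# Monomiality over a normal subgroup with abelian Sylow subgroups (helper7)

Isaacs 6.23: an irreducible character whose restriction to a solvable normal subgroup with
abelian Sylow subgroups is irreducible is monomial.
-/

set_option autoImplicit false

namespace Cfsg.Agent.Helper7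

open Cfsg
open scoped ComplexConjugate

universe u

/-- An element at which an irreducible character has maximal absolute value is central modulo
the kernel. -/
theorem am_comm_ker_of_norm {X : Type u} [Group X] [Finite X] (χ : IrrCharacter X) (g : X)
    (h : ‖(χ : X → ℂ) g‖ = (charDegree (χ : X → ℂ) : ℝ)) (x : X) :
    (χ : X → ℂ) (g * x * g⁻¹ * x⁻¹) = (χ : X → ℂ) 1 := by
  obtain ⟨n, ρ, hρ, hχ, hker⟩ := Helper25.irr_rep_ker χ
  have hn : charDegree (χ : X → ℂ) = n := by
    rw [← hχ]
    exact Helper25.rep_charDegree ρ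
  have h1 : ‖ρ.character g‖ = (Module.finrank ℂ (Fin n → ℂ) : ℝ) := by
    rw [hχ, h, hn]
    simp
  obtain ⟨ω, hω⟩ := (Cfsg.Agent.S0138.result ρ g).mp h1
  have h2 : ρ g * ρ x = ρ x * ρ g := by
    rw [hω]
    ext v
    simp
  have h3 : ρ (g * x * g⁻¹ * x⁻¹) = 1 := by
    calc ρ (g * x * g⁻¹ * x⁻¹) = ρ g * ρ x * ρ g⁻¹ * ρ x⁻¹ := by simp only [map_mul]
      _ = ρ x * ρ g * ρ g⁻¹ * ρ x⁻¹ := by rw [h2]
      _ = ρ (x * g * g⁻¹ * x⁻¹) := by simp only [map_mul]
      _ = 1 := by simp
  exact (hker _).mpr h3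

/-- Irreducible characters of a commutative group are linear. -/
theorem am_linear_of_comm {Q : Type u} [Group Q] [Finite Q] (hab : ∀ a b : Q, a * b = b * a)
    (χ : IrrCharacter Q) : charDegree (χ : Q → ℂ) = 1 := by
  classical
  letI := Fintype.ofFinite Q
  have h1 := Helper25.sum_irr_degree_sq_nat (G := Q)
  have h3 : Nat.card (ConjClasses Q) = Nat.card Q := by
    letI : CommGroup Q := { (inferInstance : Group Q) with mul_comm := hab }
    exact Nat.card_congr (ConjClasses.mkEquiv (α := Q)).symm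
  have h2 : Nat.card (IrrCharacter Q) = Nat.card Q := by rw [Helper1.card_irr, h3]
  by_contra hne
  have hpos : ∀ ψ : IrrCharacter Q, 1 ≤ charDegree (ψ : Q → ℂ) ^ 2 :=
    fun ψ => Nat.one_le_pow _ _ (Helper25.irr_degree_pos ψ)
  have hlt : ∑ _ψ : IrrCharacter Q, 1 < ∑ ψ : IrrCharacter Q, charDegree (ψ : Q → ℂ) ^ 2 := by
    apply Finset.sum_lt_sum (fun ψ _ => hpos ψ)
    refine ⟨χ, Finset.mem_univ _, ?_⟩
    have h5 : 2 ≤ charDegree (χ : Q → ℂ) := by
      have := Helper25.irr_degree_pos χ
      omega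
    nlinarith
  rw [h1, Finset.sum_const, Finset.card_univ, smul_eq_mul, mul_one, ← Nat.card_eq_fintype_card,
    h2] at hlt
  exact lt_irrefl _ hlt

/-- An irreducible character with all commutators in its kernel is linear. -/
theorem am_linear_of_comm_ker {X : Type u} [Group X] [Finite X] (χ : IrrCharacter X)
    (h : ∀ a b : X, (χ : X → ℂ) (a * b * a⁻¹ * b⁻¹) = (χ : X → ℂ) 1) :
    charDegree (χ : X → ℂ) = 1 := by
  obtain ⟨ψ, hψ⟩ := Helper25.exists_deflate χ (Helper25.irrKer χ) le_rfl
  have hab := Helper2.quot_comm_of_comm_mem (Helper25.irrKer χ)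
    (fun a b => (Helper25.mem_irrKer χ _).mpr (h a b))
  have h1 := am_linear_of_comm hab ψ
  have h2 : charDegree (ψ : X ⧸ Helper25.irrKer χ → ℂ) = charDegree (χ : X → ℂ) := by
    unfold charDegree
    rw [← hψ 1]
    rfl
  rw [← h2]
  exact h1

/-- Transfer: a central element of the commutator subgroup has order dividing the index of
any abelian subgroup. -/
theorem am_pow_index {X : Type u} [Group X] [Finite X] (Q : Subgroup X)
    (hQ : ∀ x ∈ Q, ∀ y ∈ Q, x * y = y * x) (z : X) (hz : z ∈ Subgroup.center X)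
    (hzc : z ∈ commutator X) : z ^ Q.index = 1 := by
  letI : CommGroup Q := { (inferInstance : Group Q) with
    mul_comm := fun a b => Subtype.ext (hQ a a.2 b b.2) }
  have key : ∀ (k : ℕ) (g₀ : X), g₀⁻¹ * z ^ k * g₀ ∈ Q → g₀⁻¹ * z ^ k * g₀ = z ^ k := by
    intro k g₀ _
    have hc : z ^ k ∈ Subgroup.center X := Subgroup.pow_mem _ hz k
    have h5 := Subgroup.mem_center_iff.mp hc g₀
    rw [mul_assoc, ← h5, inv_mul_cancel_left]
  have h1 := MonoidHom.transfer_eq_pow (MonoidHom.id Q) z key
  have h2 : MonoidHom.transfer (MonoidHom.id Q) z = 1 := by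
    have h6 : z ∈ (MonoidHom.transfer (MonoidHom.id Q)).ker :=
      Abelianization.commutator_subset_ker _ hzc
    exact h6
  rw [h2] at h1
  have h7 := congrArg Subtype.val h1
  simpa using h7.symm

/-- Taunt's lemma, relative form: in a subgroup `N` with abelian Sylow subgroups, an element of
the commutator subgroup which is central modulo a normal subgroup `K` lies in `K`. -/
theorem am_taunt {H : Type u} [Group H] [Finite H] (N K : Subgroup H) [K.Normal]
    (hab : ∀ (p : ℕ) [Fact p.Prime] (P : Sylow p N), ∀ a ∈ P, ∀ b ∈ P, a * b = b * a)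
    (a : H) (haN : a ∈ ⁅N, N⁆) (hc : ∀ n ∈ N, a * n * a⁻¹ * n⁻¹ ∈ K) : a ∈ K := by
  have hNN : ⁅N, N⁆ ≤ N := by
    rw [Subgroup.commutator_le]
    intro g₁ h₁ g₂ h₂
    rw [commutatorElement_def]
    exact N.mul_mem (N.mul_mem (N.mul_mem h₁ h₂) (N.inv_mem h₁)) (N.inv_mem h₂)
  have haN' : a ∈ N := hNN haN
  by_contra hne
  obtain ⟨f, hf⟩ : ∃ f : N →* N ⧸ K.subgroupOf N, f = QuotientGroup.mk' (K.subgroupOf N) :=
    ⟨_, rfl⟩
  have hfs : Function.Surjective f := by rw [hf]; exact QuotientGroup.mk'_surjective _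
  have hker : ∀ x : N, f x = 1 ↔ (x : H) ∈ K := by
    intro x
    rw [hf, QuotientGroup.mk'_apply, QuotientGroup.eq_one_iff, Subgroup.mem_subgroupOf]
  obtain ⟨z, hz⟩ : ∃ z : N ⧸ K.subgroupOf N, z = f ⟨a, haN'⟩ := ⟨_, rfl⟩
  have hz1 : z ≠ 1 := by
    rw [hz]
    intro h1
    exact hne ((hker _).mp h1)
  have hcen : z ∈ Subgroup.center (N ⧸ K.subgroupOf N) := by
    rw [Subgroup.mem_center_iff]
    intro y
    obtain ⟨n, rfl⟩ := hfs y
    have h1 : f (⟨a, haN'⟩ * n * ⟨a, haN'⟩⁻¹ * n⁻¹) = 1 := by
      rw [hker]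
      exact hc n n.2
    rw [map_mul, map_mul, map_mul, map_inv, map_inv, ← hz] at h1
    have h2 : z * f n = f n * z := by
      have h3 := mul_inv_eq_one.mp h1
      exact mul_inv_eq_iff_eq_mul.mp h3
    exact h2.symm
  have hcomm : z ∈ commutator (N ⧸ K.subgroupOf N) := by
    have h1 : (⟨a, haN'⟩ : N) ∈ commutator N := by
      have h2 : a ∈ (commutator N).map N.subtype := by
        rw [Subgroup.map_subtype_commutator]
        exact haN
      obtain ⟨y, hy, hya⟩ := h2
      have h3 : y = ⟨a, haN'⟩ := Subtype.ext hya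
      rw [← h3]
      exact hy
    have h4 : (commutator N).map f ≤ commutator (N ⧸ K.subgroupOf N) := by
      rw [commutator_def, commutator_def, Subgroup.map_commutator]
      exact Subgroup.commutator_mono le_top le_top
    rw [hz]
    exact h4 ⟨_, h1, rfl⟩
  have ho : orderOf z ≠ 1 := by
    intro h1
    exact hz1 (orderOf_eq_one_iff.mp h1)
  haveI : Fact (orderOf z).minFac.Prime := ⟨Nat.minFac_prime ho⟩
  obtain ⟨P⟩ : Nonempty (Sylow (orderOf z).minFac N) := inferInstance
  have hQ : ∀ x ∈ (P : Subgroup N).map f, ∀ y ∈ (P : Subgroup N).map f, x * y = y * x := by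
    rintro _ ⟨u, hu, rfl⟩ _ ⟨v, hv, rfl⟩
    rw [← map_mul, ← map_mul, hab _ P u hu v hv]
  have h1 := am_pow_index ((P : Subgroup N).map f) hQ z hcen hcomm
  have h2 : orderOf z ∣ ((P : Subgroup N).map f).index := orderOf_dvd_of_pow_eq_one h1
  have h3 : ((P : Subgroup N).map f).index ∣ (P : Subgroup N).index := Subgroup.index_map_dvd (P : Subgroup N) hfs
  exact P.not_dvd_index ((Nat.minFac_dvd _).trans (h2.trans h3))

/-- The derived chain of a subgroup, inside the ambient group. -/
def amSer {H : Type u} [Group H] (N : Subgroup H) : ℕ → Subgroup H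
  | 0 => N
  | (k + 1) => ⁅amSer N k, amSer N k⁆

theorem amSer_normal {H : Type u} [Group H] (N : Subgroup H) [hN : N.Normal] (k : ℕ) :
    (amSer N k).Normal := by
  induction k with
  | zero => exact hN
  | succ k ih =>
    haveI := ih
    show (⁅amSer N k, amSer N k⁆ : Subgroup H).Normal
    infer_instance

theorem amSer_le {H : Type u} [Group H] (N : Subgroup H) [hN : N.Normal] (k : ℕ) :
    amSer N k ≤ N := by
  induction k with
  | zero => exact le_rfl
  | succ k ih =>
    show (⁅amSer N k, amSer N k⁆ : Subgroup H) ≤ N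
    exact (Subgroup.commutator_mono ih ih).trans (Subgroup.commutator_le_left N N)

theorem amSer_eq_map {H : Type u} [Group H] (N : Subgroup H) (k : ℕ) :
    amSer N k = (derivedSeries N k).map N.subtype := by
  induction k with
  | zero =>
    show N = (⊤ : Subgroup N).map N.subtype
    rw [← MonoidHom.range_eq_map, Subgroup.range_subtype]
  | succ k ih =>
    show (⁅amSer N k, amSer N k⁆ : Subgroup H) = _
    rw [derivedSeries_succ, Subgroup.map_commutator, ih]

/-- A normal section of a solvable normal subgroup: not in `K`, with commutator subgroup in `K`,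
and contained in the commutator subgroup of `N`. -/
theorem am_exists_section {H : Type u} [Group H] (N K : Subgroup H) [N.Normal]
    (hsol : Group.IsSolvable N) (hK : ¬ ⁅N, N⁆ ≤ K) :
    ∃ A : Subgroup H, A.Normal ∧ A ≤ ⁅N, N⁆ ∧ ⁅A, A⁆ ≤ K ∧ ¬ A ≤ K := by
  classical
  have hex : ∃ k, amSer N k ≤ K := by
    obtain ⟨k, hk⟩ := hsol.solvable
    refine ⟨k, ?_⟩
    rw [amSer_eq_map, hk, Subgroup.map_bot]
    exact bot_le
  have h0 : Nat.find hex ≠ 0 := by
    intro h0
    have h1 := Nat.find_spec hex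
    rw [h0] at h1
    exact hK ((Subgroup.commutator_le_left N N).trans h1)
  obtain ⟨m, hm⟩ := Nat.exists_eq_succ_of_ne_zero h0
  have hm0 : m ≠ 0 := by
    intro hm0
    have h1 := Nat.find_spec hex
    rw [hm, hm0] at h1
    exact hK h1
  obtain ⟨j, hj⟩ := Nat.exists_eq_succ_of_ne_zero hm0
  refine ⟨amSer N m, amSer_normal N m, ?_, ?_, ?_⟩
  · rw [hj]
    exact Subgroup.commutator_mono (amSer_le N j) (amSer_le N j)
  · have h1 := Nat.find_spec hex
    rw [hm] at h1
    exact h1
  · exact Nat.find_min hex (by omega)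

/-- If `ψ = η^H` is irreducible with irreducible restriction to the normal subgroup `N`, then the
restriction of `η` to `N ∩ T` is irreducible. -/
theorem am_irr_restrict {H : Type u} [Group H] [Fintype H] (N T : Subgroup H) [hN : N.Normal]
    [Fintype T] (ψ : IrrCharacter H) (hθ : IsIrrCharacter N (fun n : N => (ψ : H → ℂ) n))
    (η : IrrCharacter T) (hind : indFun T (η : T → ℂ) = (ψ : H → ℂ)) :
    IsIrrCharacter (N.subgroupOf T) (fun x : N.subgroupOf T => (η : T → ℂ) x) := by
  classical
  letI : Fintype N := Fintype.ofFinite _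
  letI : Fintype (N.subgroupOf T) := Fintype.ofFinite _
  obtain ⟨ρ, hρ⟩ : ∃ ρ : N.subgroupOf T → ℂ, ρ = fun x : N.subgroupOf T => (η : T → ℂ) x :=
    ⟨_, rfl⟩
  rw [← hρ]
  have hηc : IsCharacter T (η : T → ℂ) := Helper2.isCharacter_of_isIrrCharacter η.2
  have hρc : IsCharacter (N.subgroupOf T) ρ := by
    rw [hρ]
    exact Helper2.isCharacter_restrict _ hηc
  have hψc : IsCharacter H (ψ : H → ℂ) := Helper2.isCharacter_of_isIrrCharacter ψ.2
  have hψcl : IsClassFunction H (ψ : H → ℂ) := Helper2.isClassFunction_of_isCharacter hψc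
  obtain ⟨ψT, hψT⟩ : ∃ ψT : T → ℂ, ψT = fun t : T => (ψ : H → ℂ) t := ⟨_, rfl⟩
  have hψTc : IsCharacter T ψT := by
    rw [hψT]
    exact Helper2.isCharacter_restrict T hψc
  -- `[η, ψ_T] = 1`
  have h1 : classInner (η : T → ℂ) ψT = 1 := by
    have h2 := Helper2.frobenius_reciprocity T (η : T → ℂ) (ψ : H → ℂ) hψcl
    rw [hind] at h2
    rw [hψT, ← h2]
    have h3 := Helper2.classInner_irr_irr ψ ψ
    rw [if_pos rfl] at h3
    exact h3
  have h1' : classInner ψT (η : T → ℂ) = 1 := by
    rw [Helper2.classInner_conj_symm (η : T → ℂ) ψT, h1, map_one]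
  -- `τ = ψ_T - η` is a character
  have hτ : IsCharacter T (ψT - (η : T → ℂ)) := by
    apply Helper2.isCharacter_of_nat
    · intro g x
      have e1 := Helper2.isClassFunction_of_isCharacter hψTc g x
      have e2 := Helper2.isClassFunction_of_isCharacter hηc g x
      simp only [Pi.sub_apply, e1, e2]
    · intro κ
      rw [Helper2.classInner_sub_left, Helper2.classInner_irr_irr η κ]
      by_cases hκ : η = κ
      · rw [if_pos hκ, ← hκ, h1']
        exact ⟨0, by simp⟩
      · rw [if_neg hκ, sub_zero]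
        exact Helper2.classInner_char_nat hψTc (Helper2.isCharacter_of_isIrrCharacter κ.2)
  have hτS : IsCharacter (N.subgroupOf T) (fun x : N.subgroupOf T => (ψT - (η : T → ℂ)) x) :=
    Helper2.isCharacter_restrict _ hτ
  obtain ⟨m, hm⟩ := Helper2.classInner_char_nat hρc hρc
  obtain ⟨m', hm'⟩ := Helper2.classInner_char_nat hρc hτS
  have hsum : classInner ρ (fun x : N.subgroupOf T => ψT x) = (m : ℂ) + (m' : ℂ) := by
    have e1 : (fun x : N.subgroupOf T => ψT x)
        = ρ + (fun x : N.subgroupOf T => (ψT - (η : T → ℂ)) x) := by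
      funext x
      rw [hρ]
      simp
    rw [e1, Helper2.classInner_add_right, hm, hm']
  -- the truncation of `ψ` to `N`
  obtain ⟨φ, hφ⟩ : ∃ φ : H → ℂ, φ = fun h => if h ∈ N then (ψ : H → ℂ) h else 0 := ⟨_, rfl⟩
  have hφcl : IsClassFunction H φ := by
    intro g x
    rw [hφ]
    have e1 : x * g * x⁻¹ ∈ N ↔ g ∈ N := by
      constructor
      · intro h5
        have h6 := hN.conj_mem _ h5 x⁻¹
        have e2 : x⁻¹ * (x * g * x⁻¹) * x⁻¹⁻¹ = g := by group
        rwa [e2] at h6
      · intro h5
        exact hN.conj_mem _ h5 x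
    by_cases hg : g ∈ N
    · simp only [if_pos hg, if_pos (e1.mpr hg), hψcl g x]
    · simp only [if_neg hg, if_neg (fun h5 => hg (e1.mp h5))]
  have hN0 : (Nat.card N : ℂ) ≠ 0 := Nat.cast_ne_zero.mpr Nat.card_pos.ne'
  have hH0 : (Nat.card H : ℂ) ≠ 0 := Nat.cast_ne_zero.mpr Nat.card_pos.ne'
  have hT0 : (Nat.card T : ℂ) ≠ 0 := Nat.cast_ne_zero.mpr Nat.card_pos.ne'
  have hS0 : (Nat.card (N.subgroupOf T) : ℂ) ≠ 0 := Nat.cast_ne_zero.mpr Nat.card_pos.ne'
  have hA : classInner (ψ : H → ℂ) φ = (Nat.card N : ℂ) / (Nat.card H : ℂ) := by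
    have e1 : ∑ h : H, (ψ : H → ℂ) h * conj (φ h)
        = ∑ h : H, (if h ∈ N then (ψ : H → ℂ) h * conj ((ψ : H → ℂ) h) else 0) := by
      apply Finset.sum_congr rfl
      intro h _
      rw [hφ]
      by_cases hh : h ∈ N
      · simp only [if_pos hh]
      · simp only [if_neg hh, map_zero, mul_zero]
    have e2 := Helper2.classInner_irr_irr (⟨_, hθ⟩ : IrrCharacter N) ⟨_, hθ⟩
    rw [if_pos rfl] at e2
    unfold classInner at e2
    have e3 : ∑ n : N, (ψ : H → ℂ) n * conj ((ψ : H → ℂ) n) = (Nat.card N : ℂ) := by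
      have e4 := congrArg (fun z : ℂ => (Nat.card N : ℂ) * z) e2
      simp only [mul_one] at e4
      rw [← e4, mul_inv_cancel_left₀ hN0]
    unfold classInner
    rw [e1, Helper25.qp_ind_sum N (fun h => (ψ : H → ℂ) h * conj ((ψ : H → ℂ) h)), e3]
    field_simp
  have hB : classInner (η : T → ℂ) (fun t : T => φ t)
      = (Nat.card (N.subgroupOf T) : ℂ) / (Nat.card T : ℂ)
        * classInner ρ (fun x : N.subgroupOf T => ψT x) := by
    have e1 : ∑ t : T, (η : T → ℂ) t * conj (φ t)
        = ∑ t : T, (if t ∈ N.subgroupOf T then (η : T → ℂ) t * conj (ψT t) else 0) := by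
      apply Finset.sum_congr rfl
      intro t _
      rw [hφ, hψT]
      by_cases ht : (t : H) ∈ N
      · simp only [if_pos ht, if_pos (Subgroup.mem_subgroupOf.mpr ht)]
      · simp only [if_neg ht, if_neg (fun h5 => ht (Subgroup.mem_subgroupOf.mp h5)), map_zero,
          mul_zero]
    unfold classInner
    rw [e1, Helper25.qp_ind_sum (N.subgroupOf T) (fun t => (η : T → ℂ) t * conj (ψT t)), hρ]
    field_simp
  have hF := Helper2.frobenius_reciprocity T (η : T → ℂ) φ hφcl
  rw [hind, hA, hB, hsum] at hF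
  -- clear denominators
  have hnat : Nat.card N * Nat.card T = (m + m') * (Nat.card (N.subgroupOf T) * Nat.card H) := by
    have e1 : (Nat.card N : ℂ) * (Nat.card T : ℂ)
        = ((m : ℂ) + (m' : ℂ)) * ((Nat.card (N.subgroupOf T) : ℂ) * (Nat.card H : ℂ)) := by
      field_simp at hF
      linear_combination hF
    exact_mod_cast e1
  have hle : Nat.card N * Nat.card T ≤ Nat.card (N.subgroupOf T) * Nat.card H := by
    have e1 := Subgroup.card_mul_index (N.subgroupOf T)
    have e2 := Subgroup.card_mul_index N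
    have e3 : (N.subgroupOf T).index ≤ N.index :=
      Nat.le_of_dvd (Nat.pos_of_ne_zero Subgroup.index_ne_zero_of_finite)
        (Subgroup.relIndex_dvd_index_of_normal N T)
    rw [← e1, ← e2]
    calc Nat.card N * (Nat.card (N.subgroupOf T) * (N.subgroupOf T).index)
        = Nat.card (N.subgroupOf T) * Nat.card N * (N.subgroupOf T).index := by ring
      _ ≤ Nat.card (N.subgroupOf T) * Nat.card N * N.index := Nat.mul_le_mul_left _ e3
      _ = Nat.card (N.subgroupOf T) * (Nat.card N * N.index) := by ring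
  have hpos : 0 < Nat.card (N.subgroupOf T) * Nat.card H :=
    Nat.mul_pos Nat.card_pos Nat.card_pos
  have hmm : m + m' ≤ 1 := by
    by_contra h5
    have h6 : 2 ≤ m + m' := by omega
    have h7 := Nat.mul_le_mul_right (Nat.card (N.subgroupOf T) * Nat.card H) h6
    omega
  have hm0 : m ≠ 0 := by
    intro h0
    rw [h0] at hm
    unfold classInner at hm
    have e1 : ∑ x : N.subgroupOf T, ρ x * conj (ρ x) = 0 := by
      rw [Nat.cast_zero] at hm
      rcases mul_eq_zero.mp hm with h5 | h5
      · exact absurd (inv_eq_zero.mp h5) hS0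
      · exact h5
    have e3 : ∑ x : N.subgroupOf T, ρ x * conj (ρ x)
        = ((∑ x : N.subgroupOf T, Complex.normSq (ρ x) : ℝ) : ℂ) := by
      push_cast
      apply Finset.sum_congr rfl
      intro x _
      exact Complex.mul_conj _
    rw [e3] at e1
    have e4 : ∑ x : N.subgroupOf T, Complex.normSq (ρ x) = 0 := by exact_mod_cast e1
    have e5 := (Finset.sum_eq_zero_iff_of_nonneg (fun x _ => Complex.normSq_nonneg (ρ x))).mp e4
      1 (Finset.mem_univ _)
    have e6 : ρ 1 = 0 := Complex.normSq_eq_zero.mp e5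
    rw [hρ] at e6
    exact Helper25.irr_one_ne_zero η e6
  have hm1 : m = 1 := by omega
  apply Helper2.isIrrCharacter_of_classInner_self hρc
  rw [hm, hm1, Nat.cast_one]

/-- Induction from the whole group. -/
theorem am_indFun_top {H : Type u} [Group H] [Fintype H] (ψ : H → ℂ) (hψ : IsClassFunction H ψ) :
    indFun (⊤ : Subgroup H) (fun x : (⊤ : Subgroup H) => ψ x) = ψ := by
  funext g
  rw [Helper2.indFun_apply]
  have h1 : ∀ x : H, extendByZero (⊤ : Subgroup H) (fun x : (⊤ : Subgroup H) => ψ x)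
      (x⁻¹ * g * x) = ψ g := by
    intro x
    have h2 : extendByZero (⊤ : Subgroup H) (fun x : (⊤ : Subgroup H) => ψ x) (x⁻¹ * g * x)
        = ψ (x⁻¹ * g * x) :=
      Helper2.extendByZero_coe (⊤ : Subgroup H) (fun x : (⊤ : Subgroup H) => ψ x)
        ⟨x⁻¹ * g * x, Subgroup.mem_top _⟩
    rw [h2]
    have h3 := hψ g x⁻¹
    rw [inv_inv] at h3
    exact h3
  simp only [h1, Finset.sum_const, Finset.card_univ, nsmul_eq_mul]
  rw [Subgroup.card_top, Nat.card_eq_fintype_card]
  have h0 : (Fintype.card H : ℂ) ≠ 0 := Nat.cast_ne_zero.mpr Fintype.card_ne_zero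
  rw [inv_mul_cancel_left₀ h0]

/-- The inclusion of `N ∩ T` (inside `T`) into `N`. -/
def amIncl {H : Type u} [Group H] (N T : Subgroup H) : N.subgroupOf T →* N where
  toFun x := ⟨((x : T) : H), Subgroup.mem_subgroupOf.mp x.2⟩
  map_one' := rfl
  map_mul' _ _ := rfl

theorem amIncl_injective {H : Type u} [Group H] (N T : Subgroup H) :
    Function.Injective (amIncl N T) := by
  intro x y h
  have h1 := congrArg (fun z : N => (z : H)) h
  exact Subtype.ext (Subtype.ext h1)

/-- Abelian Sylow subgroups pass to groups embedding in the given one. -/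
theorem am_as_of_injective {X Y : Type u} [Group X] [Group Y] (j : X →* Y)
    (hj : Function.Injective j)
    (hab : ∀ (p : ℕ) [Fact p.Prime] (P : Sylow p Y), ∀ a ∈ P, ∀ b ∈ P, a * b = b * a) :
    ∀ (p : ℕ) [Fact p.Prime] (P : Sylow p X), ∀ a ∈ P, ∀ b ∈ P, a * b = b * a := by
  intro p _ P a ha b hb
  have hPg : IsPGroup p ((P : Subgroup X).map j) := P.isPGroup'.map j
  obtain ⟨P', hP'⟩ := hPg.exists_le_sylow
  have h1 := hab p P' (j a) (hP' ⟨a, ha, rfl⟩) (j b) (hP' ⟨b, hb, rfl⟩)
  apply hj
  rw [map_mul, map_mul, h1]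

/-- Isaacs 6.23, inductive form: an irreducible character whose restriction to a solvable normal
subgroup with abelian Sylow subgroups is irreducible is monomial. -/
theorem am_mono_aux : ∀ n : ℕ, ∀ (H : Type u) [Group H] [Fintype H], Nat.card H ≤ n →
    ∀ (N : Subgroup H) [N.Normal],
    (∀ (p : ℕ) [Fact p.Prime] (P : Sylow p N), ∀ a ∈ P, ∀ b ∈ P, a * b = b * a) →
    Group.IsSolvable N →
    ∀ ψ : IrrCharacter H, IsIrrCharacter N (fun n : N => (ψ : H → ℂ) n) →
    ∃ (U : Subgroup H) (lam : IrrCharacter U), charDegree (lam : U → ℂ) = 1 ∧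
      indFun U (lam : U → ℂ) = (ψ : H → ℂ) := by
  intro n
  induction n with
  | zero =>
    intro H _ _ hcard
    have := Nat.card_pos (α := H)
    omega
  | succ n ih =>
    intro H _ _ hcard N hNn hab hsol ψ hθ
    classical
    by_cases hlin : charDegree (ψ : H → ℂ) = 1
    · refine ⟨⊤, ⟨fun x : (⊤ : Subgroup H) => (ψ : H → ℂ) x,
        Helper2.isIrrCharacter_comp_of_surjective (⊤ : Subgroup H).subtype
          (fun h => ⟨⟨h, Subgroup.mem_top h⟩, rfl⟩) ψ.2⟩, ?_, ?_⟩
      · show charDegree (fun x : (⊤ : Subgroup H) => (ψ : H → ℂ) x) = 1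
        rw [← hlin]
        rfl
      · exact am_indFun_top _ (Helper2.isClassFunction_of_isCharacter
          (Helper2.isCharacter_of_isIrrCharacter ψ.2))
    · obtain ⟨K, hK⟩ : ∃ K : Subgroup H, K = Helper25.irrKer ψ := ⟨_, rfl⟩
      haveI hKn : K.Normal := by
        rw [hK]
        infer_instance
      have hmemK : ∀ g : H, g ∈ K ↔ (ψ : H → ℂ) g = (ψ : H → ℂ) 1 := by
        intro g
        rw [hK]
        exact Helper25.mem_irrKer ψ g
      have hNK : ¬ ⁅N, N⁆ ≤ K := by
        intro hle
        apply hlin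
        have h1 := am_linear_of_comm_ker (⟨_, hθ⟩ : IrrCharacter N) (by
          intro a b
          show (ψ : H → ℂ) ((a * b * a⁻¹ * b⁻¹ : N) : H) = (ψ : H → ℂ) ((1 : N) : H)
          have h2 : ((a * b * a⁻¹ * b⁻¹ : N) : H) ∈ ⁅N, N⁆ := by
            have h3 := Subgroup.commutator_mem_commutator a.2 b.2
            rw [commutatorElement_def] at h3
            simpa using h3
          rw [Subgroup.coe_one]
          exact (hmemK _).mp (hle h2))
        exact h1
      obtain ⟨A, hAn, hAN', hAA, hAK⟩ := am_exists_section N K hsol hNK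
      haveI := hAn
      letI : Fintype A := Fintype.ofFinite _
      have hψA : IsCharacter A (fun a : A => (ψ : H → ℂ) a) :=
        Helper2.isCharacter_restrict A (Helper2.isCharacter_of_isIrrCharacter ψ.2)
      obtain ⟨lam, hlam⟩ := Helper24.exists_constituent hψA (by
        show (ψ : H → ℂ) ((1 : A) : H) ≠ 0
        rw [Subgroup.coe_one]
        exact Helper25.irr_one_ne_zero ψ)
      have hAT := Helper2.le_stabChar A (lam : A → ℂ)
        (Helper2.isClassFunction_of_isCharacter (Helper2.isCharacter_of_isIrrCharacter lam.2))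
      have hTtop : Helper2.stabChar A (lam : A → ℂ) ≠ ⊤ := by
        intro htop
        have hinv : ∀ (g : H) (a : A),
            (lam : A → ℂ) ⟨g * a * g⁻¹, hAn.conj_mem (a : H) a.2 g⟩ = (lam : A → ℂ) a := by
          intro g a
          have hg : g ∈ Helper2.stabChar A (lam : A → ℂ) := by
            rw [htop]
            trivial
          exact congrFun ((Helper2.mem_stabChar A _ g).mp hg) a
        obtain ⟨e, he0, heq, -⟩ :=
          Helper7.clifford_invariant A (lam : A → ℂ) lam.2 hinv (ψ : H → ℂ) ψ.2 hlam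
        have he' : (e : ℂ) ≠ 0 := Nat.cast_ne_zero.mpr he0
        have hval : ∀ a : A, (ψ : H → ℂ) a = (e : ℂ) * (lam : A → ℂ) a := by
          intro a
          have h5 := congrFun heq a
          simpa [Pi.smul_apply, smul_eq_mul] using h5
        have hlam1 : charDegree (lam : A → ℂ) = 1 := by
          apply am_linear_of_comm_ker lam
          intro a b
          have h2 : ((a * b * a⁻¹ * b⁻¹ : A) : H) ∈ K := by
            apply hAA
            have h3 := Subgroup.commutator_mem_commutator a.2 b.2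
            rw [commutatorElement_def] at h3
            simpa using h3
          have h4 := (hmemK _).mp h2
          have h6 := hval 1
          rw [Subgroup.coe_one] at h6
          rw [hval, h6] at h4
          exact mul_left_cancel₀ he' h4
        have hl1 : (lam : A → ℂ) 1 = 1 := by
          rw [Helper25.irr_one_eq_degree lam, hlam1, Nat.cast_one]
        have hdeg : charDegree (ψ : H → ℂ) = e := by
          have h5 := hval 1
          rw [Subgroup.coe_one, Helper25.irr_one_eq_degree ψ, hl1, mul_one] at h5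
          exact_mod_cast h5
        apply hAK
        intro a ha
        have hnorm : ‖(ψ : H → ℂ) a‖ = (charDegree (ψ : H → ℂ) : ℝ) := by
          have h5 := hval ⟨a, ha⟩
          rw [h5, norm_mul, Cfsg.Agent.S4762.linear_norm lam hl1, mul_one, Complex.norm_natCast,
            hdeg]
        apply am_taunt N K hab a (hAN' ha)
        intro x _
        exact (hmemK _).mpr (am_comm_ker_of_norm ψ a hnorm x)
      letI : Fintype (Helper2.stabChar A (lam : A → ℂ)) := Fintype.ofFinite _
      obtain ⟨η, f, -, -, hind⟩ :=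
        Helper2.clifford_corr A ψ lam hlam (Helper2.stabChar A (lam : A → ℂ)) rfl hAT
      have hirr := am_irr_restrict N (Helper2.stabChar A (lam : A → ℂ)) ψ hθ η hind
      have hcardT : Nat.card (Helper2.stabChar A (lam : A → ℂ)) ≤ n := by
        have h1 := (Helper2.stabChar A (lam : A → ℂ)).card_mul_index
        have h2 : (Helper2.stabChar A (lam : A → ℂ)).index ≠ 1 :=
          fun h => hTtop (Subgroup.index_eq_one.mp h)
        have h3 : (Helper2.stabChar A (lam : A → ℂ)).index ≠ 0 :=
          Subgroup.index_ne_zero_of_finite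
        have h4 : 0 < Nat.card (Helper2.stabChar A (lam : A → ℂ)) := Nat.card_pos
        have h5 : 2 ≤ (Helper2.stabChar A (lam : A → ℂ)).index := by omega
        nlinarith
      have hAS' := am_as_of_injective (amIncl N (Helper2.stabChar A (lam : A → ℂ)))
        (amIncl_injective N _) hab
      haveI := hsol
      have hsol' : Group.IsSolvable (N.subgroupOf (Helper2.stabChar A (lam : A → ℂ))) :=
        Group.isSolvable_of_isSolvable_injective (amIncl_injective N _)
      obtain ⟨U', lam', h1, hind'⟩ := ih (Helper2.stabChar A (lam : A → ℂ)) hcardT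
        (N.subgroupOf (Helper2.stabChar A (lam : A → ℂ))) hAS' hsol' η hirr
      obtain ⟨U, lamU, hlamU, hind''⟩ :=
        Helper2.monomial_transport (Helper2.stabChar A (lam : A → ℂ)) U' lam' h1
      exact ⟨U, lamU, hlamU, by rw [hind'', hind', hind]⟩

end Cfsg.Agent.Helper7
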