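import Mathlib
import Cfsg.Agent.Helper2.Cliff
import Cfsg.Agent.Helper1.CharCentral
import Cfsg.Agent.Helper25.CharMore
import Cfsg.Agent.Helper25.CharArith
import Cfsg.Agent.Helper25.CharOrth
import Cfsg.Agent.Helper13.PSolv

/-!
# Characters of defect zero from free actions (helper7)

If `N ⊴ G` has order prime to `r` and divisible by `s`, and `G` has no element of order
divisible by `r * s`, then some irreducible character of `N` is fixed by no element of order `r`
of `G`, hence `G` has an irreducible character of `r`-defect zero.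
-/

set_option autoImplicit false

namespace Cfsg.Agent.Helper7

open Cfsg Cfsg.Agent.Helper2

universe u

section DefZero

variable {G : Type u} [Group G]

/-- a finset stable under a permutation of prime order without fixed points on it has
cardinality divisible by the prime -/
theorem dz_card_dvd {α : Type*} [DecidableEq α] (r : ℕ) [Fact r.Prime] (f : Equiv.Perm α)
    (hf : f ^ r = 1) (F : Finset α) (hst : ∀ a, f a ∈ F ↔ a ∈ F) (hfree : ∀ a ∈ F, f a ≠ a) :
    r ∣ F.card := by
  by_contra hnd
  have hcard : ¬ r ∣ Fintype.card {a // a ∈ F} := by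
    rwa [Fintype.card_coe]
  have hpow : (f.subtypePerm hst) ^ r ^ 1 = 1 := by
    rw [pow_one, Equiv.Perm.subtypePerm_pow]
    ext a
    simp [hf]
  obtain ⟨a, ha⟩ := Equiv.Perm.exists_fixed_point_of_prime hcard hpow
  apply hfree a.1 a.2
  have h := congrArg Subtype.val ha
  simpa using h

/-- Clifford: an irreducible character of a normal subgroup whose stabilizer has order prime
to `r` lies under a character of `r`-defect zero. -/
theorem dz_defect_zero_of_stab [Finite G] (N : Subgroup G) [hN : N.Normal] (r : ℕ)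
    [hr : Fact r.Prime] (θ : IrrCharacter N)
    (hst : ¬ r ∣ Nat.card (stabChar N (θ : N → ℂ))) :
    ∃ χ : IrrCharacter G,
      (charDegree (χ : G → ℂ)).factorization r = (Nat.card G).factorization r := by
  classical
  have := Fintype.ofFinite G
  obtain ⟨χ, hχ⟩ := exists_irr_above_h2 N θ
  obtain ⟨e, he⟩ := classInner_char_nat
    (isCharacter_restrict N (isCharacter_of_isIrrCharacter χ.2))
    (isCharacter_of_isIrrCharacter θ.2)
  have he0 : e ≠ 0 := by
    rintro rfl
    apply hχ
    rw [he, Nat.cast_zero]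
  have hdeg := cliff_degree_stab N χ θ e he he0
  have hdvd := Cfsg.Agent.Helper25.irr_degree_dvd_card χ
  refine ⟨χ, ?_⟩
  have hG0 : Nat.card G ≠ 0 := Nat.card_pos.ne'
  have hχ0 : charDegree (χ : G → ℂ) ≠ 0 := by
    intro h0
    rw [h0] at hdvd
    exact hG0 (zero_dvd_iff.mp hdvd)
  obtain ⟨T, hT⟩ : ∃ T : Subgroup G, T = stabChar N (θ : N → ℂ) := ⟨_, rfl⟩
  rw [← hT] at hst hdeg
  have hidx : T.index ∣ charDegree (χ : G → ℂ) :=
    ⟨e * charDegree (θ : N → ℂ), by rw [hdeg]; ring⟩
  have hcard : Nat.card T * T.index = Nat.card G := Subgroup.card_mul_index T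
  have hidx0 : T.index ≠ 0 := Subgroup.index_ne_zero_of_finite
  have hT0 : Nat.card T ≠ 0 := Nat.card_pos.ne'
  have h1 : (Nat.card G).factorization r = T.index.factorization r := by
    rw [← hcard, Nat.factorization_mul hT0 hidx0, Finsupp.add_apply,
      Nat.factorization_eq_zero_of_not_dvd hst, zero_add]
  apply le_antisymm
  · exact (Nat.factorization_le_iff_dvd hχ0 hG0).mpr hdvd r
  · rw [h1]
    exact (Nat.factorization_le_iff_dvd hidx0 hχ0).mpr hidx r

/-- The key counting lemma: some irreducible character of `N` has stabilizer of order prime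
to `r`. -/
theorem dz_exists_free [Finite G] (N : Subgroup G) [hN : N.Normal] (r s : ℕ)
    [hr : Fact r.Prime] [hs : Fact s.Prime]
    (hrN : ¬ r ∣ Nat.card N) (hsN : s ∣ Nat.card N)
    (hrs : ∀ g : G, ¬ (r * s ∣ orderOf g)) :
    ∃ θ : IrrCharacter N, ¬ r ∣ Nat.card (stabChar N (θ : N → ℂ)) := by
  classical
  have := Fintype.ofFinite G
  have hrsne : r ≠ s := by
    rintro rfl
    exact hrN hsN
  obtain ⟨n₀, hn₀⟩ := exists_prime_orderOf_dvd_card' s hsN
  by_contra hcon
  push Not at hcon
  obtain ⟨T, hT⟩ : ∃ T : Finset N, T = Finset.univ.filter (fun n : N => orderOf n = s) :=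
    ⟨_, rfl⟩
  have hTmem : ∀ n : N, n ∈ T ↔ orderOf n = s := by
    intro n
    rw [hT]
    simp
  have key : ∀ θ : IrrCharacter N, ∃ β : ℂ, IsIntegral ℤ β ∧
      ∑ n ∈ T, (θ : N → ℂ) n = (r : ℂ) * β := by
    intro θ
    obtain ⟨t, ht⟩ := exists_prime_orderOf_dvd_card' r (hcon θ)
    obtain ⟨x, hx⟩ : ∃ x : G, x = (t : G) := ⟨_, rfl⟩
    have hxo : orderOf x = r := by
      rw [hx, Subgroup.orderOf_coe, ht]
    have hfix : conjChar N (θ : N → ℂ) x = (θ : N → ℂ) := by
      rw [hx]
      exact (mem_stabChar N _ _).mp t.2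
    obtain ⟨f, hf⟩ : ∃ f : Equiv.Perm N, f = MulAut.toPerm N (MulAut.conjNormal x) :=
      ⟨_, rfl⟩
    have hfpow : f ^ r = 1 := by
      rw [hf, ← map_pow, ← map_pow, ← hxo, pow_orderOf_eq_one, map_one, map_one]
    have hfapp : ∀ n : N, ((f n : N) : G) = x * n * x⁻¹ := by
      intro n
      rw [hf]
      exact MulAut.conjNormal_apply x n
    have hθf : ∀ n : N, (θ : N → ℂ) (f n) = (θ : N → ℂ) n := by
      intro n
      have h := congrFun hfix n
      rw [conjChar_apply] at h
      have e1 : f n = ⟨x * n * x⁻¹, hN.conj_mem n n.2 x⟩ := Subtype.ext (hfapp n)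
      rw [e1]
      exact h
    have hord : ∀ n : N, orderOf (f n) = orderOf n := by
      intro n
      rw [hf]
      exact MulEquiv.orderOf_eq (MulAut.conjNormal x) n
    have hfree : ∀ n : N, orderOf n = s → f n ≠ n := by
      intro n hn hfn
      have hcomm : Commute x (n : G) := by
        have h1 := hfapp n
        rw [hfn] at h1
        show x * (n : G) = (n : G) * x
        calc x * (n : G) = x * n * x⁻¹ * x := by group
          _ = n * x := by rw [← h1]
      have hcop : (orderOf x).Coprime (orderOf (n : G)) := by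
        rw [hxo, Subgroup.orderOf_coe, hn]
        exact (Nat.coprime_primes hr.out hs.out).mpr hrsne
      have h2 := hcomm.orderOf_mul_eq_mul_orderOf_of_coprime hcop
      apply hrs (x * n)
      rw [h2, hxo, Subgroup.orderOf_coe, hn]
    rw [Finset.sum_comp (fun b : ℂ => b) (fun n : N => (θ : N → ℂ) n)]
    have hdv : ∀ b : ℂ, r ∣ (T.filter (fun a : N => (θ : N → ℂ) a = b)).card := by
      intro b
      apply dz_card_dvd r f hfpow
      · intro a
        rw [Finset.mem_filter, Finset.mem_filter, hTmem, hTmem, hord, hθf]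
      · intro a ha
        rw [Finset.mem_filter, hTmem] at ha
        exact hfree a ha.1
    refine ⟨∑ b ∈ T.image (fun n : N => (θ : N → ℂ) n),
      ((T.filter (fun a : N => (θ : N → ℂ) a = b)).card / r) • b, ?_, ?_⟩
    · apply IsIntegral.sum
      intro b hb
      obtain ⟨a, -, rfl⟩ := Finset.mem_image.mp hb
      exact (Cfsg.Agent.Helper25.irr_isIntegral θ a).nsmul _
    · rw [Finset.mul_sum]
      apply Finset.sum_congr rfl
      intro b _
      obtain ⟨m, hm⟩ := hdv b
      rw [hm, Nat.mul_div_cancel_left m hr.out.pos, nsmul_eq_mul, nsmul_eq_mul]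
      push_cast
      ring
  choose β hβi hβ using key
  -- second orthogonality summed over `T`
  have hsum : ∑ θ : IrrCharacter N, (θ : N → ℂ) n₀⁻¹ * ((r : ℂ) * β θ) =
      (Nat.card N : ℂ) := by
    have h1 : ∀ θ : IrrCharacter N, (θ : N → ℂ) n₀⁻¹ * ((r : ℂ) * β θ) =
        ∑ n ∈ T, (θ : N → ℂ) n * (θ : N → ℂ) n₀⁻¹ := by
      intro θ
      rw [← hβ θ, Finset.mul_sum]
      apply Finset.sum_congr rfl
      intro n _
      ring
    rw [Finset.sum_congr rfl (fun θ _ => h1 θ), Finset.sum_comm]
    have h2 : ∀ n ∈ T, ∑ θ : IrrCharacter N, (θ : N → ℂ) n * (θ : N → ℂ) n₀⁻¹ =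
        if IsConj n₀ n then (Nat.card (Subgroup.centralizer ({n₀} : Set N)) : ℂ) else 0 := by
      intro n _
      have h3 := Cfsg.Agent.Helper25.second_orthogonality n n₀
      rw [h3]
      simp only [isConj_comm]
    rw [Finset.sum_congr rfl h2, ← Finset.sum_filter, Finset.sum_const, nsmul_eq_mul]
    have h4 : (T.filter (fun n : N => IsConj n₀ n)).card = Nat.card {x : N // IsConj n₀ x} := by
      rw [Nat.card_eq_fintype_card, Fintype.card_subtype]
      congr 1
      ext n
      rw [Finset.mem_filter, Finset.mem_filter, hTmem]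
      constructor
      · intro h
        exact ⟨Finset.mem_univ _, h.2⟩
      · intro h
        refine ⟨?_, h.2⟩
        obtain ⟨c, hc⟩ := isConj_iff.mp h.2
        rw [← hc, ← hn₀]
        exact MulEquiv.orderOf_eq (MulAut.conj c) n₀
    rw [h4, ← Nat.cast_mul, Cfsg.Agent.Helper25.card_class_mul_card_centralizer]
  apply hrN
  apply Cfsg.Agent.Helper1.dvd_of_isIntegral_div (Nat.card N) r hr.out.ne_zero
  have h5 : ((Nat.card N : ℕ) : ℂ) / (r : ℂ) = ∑ θ : IrrCharacter N, (θ : N → ℂ) n₀⁻¹ * β θ := by
    rw [← hsum, Finset.sum_div]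
    apply Finset.sum_congr rfl
    intro θ _
    have hr0 : (r : ℂ) ≠ 0 := Nat.cast_ne_zero.mpr hr.out.ne_zero
    field_simp
  rw [h5]
  apply IsIntegral.sum
  intro θ _
  exact (Cfsg.Agent.Helper25.irr_isIntegral θ _).mul (hβi θ)

/-- `p`-solvable groups without elements of order divisible by `p * q` have characters of
`p`-defect zero or `q`-defect zero. -/
theorem dz_main (p q : ℕ) [hp : Fact p.Prime] [hq : Fact q.Prime] (hpq : p ≠ q) :
    ∀ (n : ℕ) (G : Type u) [Group G] [Finite G], Nat.card G = n →
      p ∣ Nat.card G → q ∣ Nat.card G → (∀ g : G, ¬ (p * q ∣ orderOf g)) → IsPSolvable p G →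
      (∃ χ : IrrCharacter G,
        (charDegree (χ : G → ℂ)).factorization p = (Nat.card G).factorization p) ∨
      (∃ χ : IrrCharacter G,
        (charDegree (χ : G → ℂ)).factorization q = (Nat.card G).factorization q) := by
  intro n
  induction n using Nat.strong_induction_on with
  | _ n ih =>
    intro G _ _ hn hpG hqG hno hsolv
    have hnt : Nontrivial G := by
      rw [← Finite.one_lt_card_iff_nontrivial]
      exact lt_of_lt_of_le hp.out.one_lt (Nat.le_of_dvd Nat.card_pos hpG)
    obtain ⟨M, hMn, hM1, hM⟩ := Cfsg.Agent.Helper13.exists_normal_of_isPSolvable hsolv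
    haveI := hMn
    have hM1' : Nat.card M ≠ 1 := fun h => hM1 (Subgroup.card_eq_one.mp h)
    rcases hM with hM | hM
    · right
      obtain ⟨k, hk⟩ := IsPGroup.iff_card.mp hM
      have hqM : ¬ q ∣ Nat.card M := by
        rw [hk]
        intro h
        exact hpq ((Nat.prime_dvd_prime_iff_eq hq.out hp.out).mp (hq.out.dvd_of_dvd_pow h)).symm
      have hpM : p ∣ Nat.card M := by
        rw [hk]
        have hk0 : k ≠ 0 := by
          rintro rfl
          rw [pow_zero] at hk
          exact hM1' hk
        exact dvd_pow_self p hk0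
      have hno' : ∀ g : G, ¬ (q * p ∣ orderOf g) := fun g => by
        rw [mul_comm]
        exact hno g
      obtain ⟨θ, hθ⟩ := dz_exists_free M q p hqM hpM hno'
      exact dz_defect_zero_of_stab M q θ hθ
    · have hpM : ¬ p ∣ Nat.card M := fun h =>
        hp.out.one_lt.ne' (Nat.eq_one_of_dvd_coprimes hM h (dvd_refl p))
      by_cases hqM : q ∣ Nat.card M
      · left
        obtain ⟨θ, hθ⟩ := dz_exists_free M p q hpM hqM hno
        exact dz_defect_zero_of_stab M p θ hθ
      · have hcard : Nat.card (G ⧸ M) * Nat.card M = Nat.card G :=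
          (Subgroup.card_eq_card_quotient_mul_card_subgroup M).symm
        have hM0 : Nat.card M ≠ 0 := Nat.card_pos.ne'
        have hQ0 : Nat.card (G ⧸ M) ≠ 0 := Nat.card_pos.ne'
        have hlt : Nat.card (G ⧸ M) < n := by
          rw [← hn, ← hcard]
          have h2 : 2 ≤ Nat.card M := by
            have := Nat.card_pos (α := M)
            omega
          have h3 : 0 < Nat.card (G ⧸ M) := Nat.card_pos
          nlinarith
        have hpQ : p ∣ Nat.card (G ⧸ M) := by
          rw [← hcard] at hpG
          exact (hp.out.dvd_mul.mp hpG).resolve_right hpM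
        have hqQ : q ∣ Nat.card (G ⧸ M) := by
          rw [← hcard] at hqG
          exact (hq.out.dvd_mul.mp hqG).resolve_right hqM
        have hnoQ : ∀ g : G ⧸ M, ¬ (p * q ∣ orderOf g) := by
          intro g
          obtain ⟨g', rfl⟩ := QuotientGroup.mk_surjective g
          intro h
          exact hno g' (h.trans (orderOf_map_dvd (QuotientGroup.mk' M) g'))
        have hsQ := Cfsg.Agent.Helper13.isPSolvable_quotient hsolv M
        have hinfl : ∀ (r : ℕ), ¬ r ∣ Nat.card M → ∀ χ : IrrCharacter (G ⧸ M),
            (charDegree (χ : G ⧸ M → ℂ)).factorization r =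
              (Nat.card (G ⧸ M)).factorization r →
            ∃ χ' : IrrCharacter G,
              (charDegree (χ' : G → ℂ)).factorization r = (Nat.card G).factorization r := by
          intro r hrM χ hχ
          refine ⟨⟨fun g => (χ : G ⧸ M → ℂ) (QuotientGroup.mk' M g),
            isIrrCharacter_comp_of_surjective (QuotientGroup.mk' M)
              (QuotientGroup.mk'_surjective M) χ.2⟩, ?_⟩
          have hdeg : charDegree (fun g : G => (χ : G ⧸ M → ℂ) (QuotientGroup.mk' M g)) =
              charDegree (χ : G ⧸ M → ℂ) := by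
            unfold charDegree
            simp
          show (charDegree (fun g : G => (χ : G ⧸ M → ℂ) (QuotientGroup.mk' M g))).factorization r
            = (Nat.card G).factorization r
          rw [hdeg, hχ, ← hcard, Nat.factorization_mul hQ0 hM0, Finsupp.add_apply,
            Nat.factorization_eq_zero_of_not_dvd hrM, add_zero]
        rcases ih _ hlt (G ⧸ M) rfl hpQ hqQ hnoQ hsQ with ⟨χ, hχ⟩ | ⟨χ, hχ⟩
        · left
          exact hinfl p hpM χ hχ
        · right
          exact hinfl q hqM χ hχ

end DefZero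

end Cfsg.Agent.Helper7
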