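import Mathlib
import Cfsg.Agent.Helper7.ElemInv
import Cfsg.Agent.Helper7.ExtSyl
import Cfsg.Agent.Helper7.LinChar
import Cfsg.Agent.Helper7.Clifford
import Cfsg.Agent.Helper2.Artin

/-!
# Extending invariant characters via elementary subgroups (helper7)

* `comm_inf_eq_one_of_ext`: if `P ∩ N` is central in `P` and all linear characters of `P ∩ N`
  extend to `P`, then `N ∩ [P, P] = 1`.
* `elementary_commutator_le`: the derived subgroup of a `p`-elementary subgroup lies in the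
  derived subgroup of a Sylow `p`-subgroup.
* `exists_linear_extension_of_comm_inf`: if `N ∩ [E, E] = 1` then every irreducible character of
  `E ∩ N` extends to a character of `E`.
* `exists_irr_extension_of_central_inf`: Isaacs-type extension theorem.
-/

set_option autoImplicit false

namespace Cfsg.Agent.Helper7

open Cfsg Cfsg.Agent.Helper25 Cfsg.Agent.Helper2
open scoped ComplexConjugate commutatorElement

universe u

variable {G : Type u} [Group G]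

theorem comm_inf_eq_one_of_ext [Finite G] (P N : Subgroup G)
    (hcent : ∀ x ∈ P ⊓ N, ∀ y ∈ P, x * y = y * x)
    (hlin : ∀ lam : ↥(P ⊓ N) → ℂ, IsCharacter ↥(P ⊓ N) lam → lam 1 = 1 →
      ∃ μ : ↥P → ℂ, IsCharacter ↥P μ ∧ μ 1 = 1 ∧ ∀ x : ↥(P ⊓ N), μ ⟨(x : G), x.2.1⟩ = lam x)
    (z : G) (hzN : z ∈ N) (hz : z ∈ ⁅P, P⁆) : z = 1 := by
  classical
  by_contra hne
  have hPP : ⁅P, P⁆ ≤ P := by
    rw [Subgroup.commutator_le]
    intro g₁ h₁ g₂ h₂
    exact P.mul_mem (P.mul_mem (P.mul_mem h₁ h₂) (P.inv_mem h₁)) (P.inv_mem h₂)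
  have hzP : z ∈ P := hPP hz
  letI : CommGroup ↥(P ⊓ N) := { (inferInstance : Group ↥(P ⊓ N)) with
    mul_comm := fun a b => Subtype.ext (hcent a a.2 b b.2.1) }
  haveI : NeZero ((Monoid.exponent ↥(P ⊓ N) : ℕ) : ℂ) := ⟨by
    have := Monoid.exponent_ne_zero_of_finite (G := ↥(P ⊓ N))
    exact_mod_cast this⟩
  obtain ⟨f, hf⟩ := CommGroup.exists_apply_ne_one_of_hasEnoughRootsOfUnity ↥(P ⊓ N) ℂ
    (a := ⟨z, hzP, hzN⟩) (by intro h; exact hne (congrArg Subtype.val h))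
  obtain ⟨μ, hμ, hμ1, hμe⟩ := hlin (fun x => ((f x : ℂˣ) : ℂ)) (isCharacter_of_hom f) (by simp)
  obtain ⟨F, hF⟩ := exists_hom_of_linear μ hμ hμ1
  have hk : ⁅P, P⁆ ≤ (F.ker).map P.subtype := by
    rw [Subgroup.commutator_le]
    intro g₁ h₁ g₂ h₂
    refine ⟨⁅(⟨g₁, h₁⟩ : ↥P), ⟨g₂, h₂⟩⁆, ?_, rfl⟩
    show F _ = 1
    rw [map_commutatorElement]
    exact commutatorElement_eq_one_iff_commute.mpr (Commute.all _ _)
  obtain ⟨y, hy, hyz⟩ := hk hz
  have hy1 : F y = 1 := hy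
  have hyeq : y = ⟨z, hzP⟩ := Subtype.ext hyz
  have h1 := hμe ⟨z, hzP, hzN⟩
  rw [hF] at h1
  simp only at h1
  rw [← hyeq, hy1] at h1
  apply hf
  apply Units.ext
  rw [← h1]

theorem comm_inf_eq_one_sylow [Finite G] (p : ℕ) [Fact p.Prime] (N : Subgroup G)
    [hN : N.Normal] (P P' : Sylow p G)
    (h : ∀ z ∈ N, z ∈ ⁅(P : Subgroup G), (P : Subgroup G)⁆ → z = 1) :
    ∀ z ∈ N, z ∈ ⁅(P' : Subgroup G), (P' : Subgroup G)⁆ → z = 1 := by
  obtain ⟨g, hg⟩ := MulAction.exists_smul_eq G P P'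
  intro z hzN hz
  have h1 : (P' : Subgroup G) = (P : Subgroup G).map (MulAut.conj g).toMonoidHom := by
    rw [← hg, Sylow.coe_subgroup_smul]
    rfl
  rw [h1, ← Subgroup.map_commutator] at hz
  obtain ⟨w, hw, rfl⟩ := hz
  have hwN : w ∈ N := by
    have := hN.conj_mem _ hzN g⁻¹
    simpa [MulAut.conj_apply, mul_assoc] using this
  have : w = 1 := h w hwN hw
  simp [this]

theorem commutatorElement_central_mul {E : Type*} [Group E] (c₁ c₂ q₁ q₂ : E)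
    (h₁ : ∀ g : E, g * c₁ = c₁ * g) (h₂ : ∀ g : E, g * c₂ = c₂ * g) :
    ⁅c₁ * q₁, c₂ * q₂⁆ = ⁅q₁, q₂⁆ := by
  have e1 : ∀ (z a b : E), (∀ g : E, g * z = z * g) → ⁅z * a, b⁆ = ⁅a, b⁆ := by
    intro z a b hz
    rw [commutatorElement_def, commutatorElement_def]
    calc z * a * b * (z * a)⁻¹ * b⁻¹ = z * (a * b * a⁻¹) * z⁻¹ * b⁻¹ := by group
      _ = (a * b * a⁻¹) * z * z⁻¹ * b⁻¹ := by rw [hz (a * b * a⁻¹)]
      _ = a * b * a⁻¹ * b⁻¹ := by group
  have e2 : ∀ (z a b : E), (∀ g : E, g * z = z * g) → ⁅a, z * b⁆ = ⁅a, b⁆ := by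
    intro z a b hz
    rw [commutatorElement_def, commutatorElement_def]
    calc a * (z * b) * a⁻¹ * (z * b)⁻¹ = (a * z) * b * a⁻¹ * b⁻¹ * z⁻¹ := by group
      _ = z * a * b * a⁻¹ * b⁻¹ * z⁻¹ := by rw [hz a]
      _ = z * (a * b * a⁻¹ * b⁻¹) * z⁻¹ := by group
      _ = (a * b * a⁻¹ * b⁻¹) * z * z⁻¹ := by rw [hz (a * b * a⁻¹ * b⁻¹)]
      _ = a * b * a⁻¹ * b⁻¹ := by group
  rw [e1 c₁ q₁ _ h₁, e2 c₂ q₁ q₂ h₂]

theorem elementary_commutator_le [Finite G] (p : ℕ) [Fact p.Prime] (E : Subgroup G)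
    (hE : IsElementary p ↥E) :
    ∃ P' : Sylow p G, ⁅E, E⁆ ≤ ⁅(P' : Subgroup G), (P' : Subgroup G)⁆ := by
  obtain ⟨x, hxc, hcop, k, hk⟩ := hE
  obtain ⟨Q₀⟩ : Nonempty (Sylow p ↥E) := inferInstance
  have hCc : Subgroup.zpowers x ≤ Subgroup.center ↥E := by
    rw [Subgroup.zpowers_le]
    exact hxc
  haveI hCn : (Subgroup.zpowers x).Normal := ⟨fun n hn g => by
    have := Subgroup.mem_center_iff.mp (hCc hn) g
    rw [this, mul_inv_cancel_right]
    exact hn⟩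
  have htop : Subgroup.zpowers x ⊔ (Q₀ : Subgroup ↥E) = ⊤ := by
    rw [← Subgroup.index_eq_one]
    have h1 : (Subgroup.zpowers x ⊔ (Q₀ : Subgroup ↥E)).index ∣ p ^ k := by
      rw [← hk]
      exact Subgroup.index_dvd_of_le le_sup_left
    have h2 : (Subgroup.zpowers x ⊔ (Q₀ : Subgroup ↥E)).index ∣ (Q₀ : Subgroup ↥E).index :=
      Subgroup.index_dvd_of_le le_sup_right
    have h3 : ¬ p ∣ (Q₀ : Subgroup ↥E).index := Q₀.not_dvd_index
    obtain ⟨j, hj, hj2⟩ := (Nat.dvd_prime_pow (Fact.out)).mp h1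
    rw [hj2] at h2 ⊢
    rcases Nat.eq_zero_or_pos j with rfl | hjpos
    · simp
    · exact absurd (dvd_trans (dvd_pow_self p hjpos.ne') h2) h3
  have hQ : IsPGroup p ((Q₀ : Subgroup ↥E).map E.subtype) := Q₀.isPGroup'.map E.subtype
  obtain ⟨P', hP'⟩ := hQ.exists_le_sylow
  refine ⟨P', ?_⟩
  rw [Subgroup.commutator_le]
  intro g₁ h₁ g₂ h₂
  have key : ∀ e : ↥E, ∃ c q : ↥E, c ∈ Subgroup.center ↥E ∧ q ∈ (Q₀ : Subgroup ↥E)
      ∧ e = c * q := by
    intro e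
    have he : e ∈ ((Subgroup.zpowers x ⊔ (Q₀ : Subgroup ↥E) : Subgroup ↥E) : Set ↥E) := by
      rw [htop]
      trivial
    rw [Subgroup.normal_mul] at he
    obtain ⟨c, hc, q, hq, rfl⟩ := Set.mem_mul.mp he
    exact ⟨c, q, hCc hc, hq, rfl⟩
  obtain ⟨c₁, q₁, hc₁, hq₁, e₁⟩ := key ⟨g₁, h₁⟩
  obtain ⟨c₂, q₂, hc₂, hq₂, e₂⟩ := key ⟨g₂, h₂⟩
  have hcomm : ⁅(⟨g₁, h₁⟩ : ↥E), ⟨g₂, h₂⟩⁆ = ⁅q₁, q₂⁆ := by
    rw [e₁, e₂]
    exact commutatorElement_central_mul c₁ c₂ q₁ q₂ (Subgroup.mem_center_iff.mp hc₁)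
      (Subgroup.mem_center_iff.mp hc₂)
  have h3 : ⁅g₁, g₂⁆ = ⁅(q₁ : G), (q₂ : G)⁆ := by
    have := congrArg (Subtype.val) hcomm
    exact this
  rw [h3]
  exact Subgroup.commutator_mem_commutator (hP' ⟨q₁, hq₁, rfl⟩) (hP' ⟨q₂, hq₂, rfl⟩)

theorem exists_linear_extension_of_comm_inf [Finite G] (E N : Subgroup G)
    (h : ∀ z ∈ N, z ∈ ⁅E, E⁆ → z = 1) (φ : ↥(E ⊓ N) → ℂ) (hφ : IsIrrCharacter ↥(E ⊓ N) φ) :
    ∃ ψ : ↥E → ℂ, IsCharacter ↥E ψ ∧ ∀ x : ↥(E ⊓ N), ψ ⟨(x : G), x.2.1⟩ = φ x := by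
  classical
  have hcomm : ∀ a b : ↥(E ⊓ N), a * b = b * a := by
    intro a b
    have h1 : ⁅(a : G), (b : G)⁆ = 1 := by
      apply h
      · exact N.mul_mem (N.mul_mem (N.mul_mem a.2.2 b.2.2) (N.inv_mem a.2.2)) (N.inv_mem b.2.2)
      · exact Subgroup.commutator_mem_commutator a.2.1 b.2.1
    apply Subtype.ext
    exact commutatorElement_eq_one_iff_mul_comm.mp h1
  obtain ⟨lam, hlam⟩ := exists_hom_of_irr_of_comm hcomm ⟨φ, hφ⟩
  obtain ⟨f₀, hf₀⟩ : ∃ f₀ : ↥(E ⊓ N) →* Abelianization ↥E,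
      f₀ = (Abelianization.of).comp (Subgroup.inclusion inf_le_left) := ⟨_, rfl⟩
  have hinj : Function.Injective f₀ := by
    rw [injective_iff_map_eq_one]
    intro a ha
    rw [hf₀] at ha
    have h2 : Subgroup.inclusion (inf_le_left : E ⊓ N ≤ E) a
        ∈ (Abelianization.of (G := ↥E)).ker := ha
    rw [Abelianization.ker_of] at h2
    have h3 : (a : G) ∈ ⁅E, E⁆ := by
      rw [← Subgroup.map_subtype_commutator]
      exact ⟨_, h2, rfl⟩
    exact Subtype.ext (h _ a.2.2 h3)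
  haveI : NeZero ((Monoid.exponent (Abelianization ↥E) : ℕ) : ℂ) := ⟨by
    have := Monoid.exponent_ne_zero_of_finite (G := Abelianization ↥E)
    exact_mod_cast this⟩
  obtain ⟨Ψ, hΨ⟩ := MonoidHom.domRestrict_surjective (M := ℂ) f₀.range
    (lam.comp (MonoidHom.ofInjective hinj).symm.toMonoidHom)
  refine ⟨fun e => ((Ψ (Abelianization.of e) : ℂˣ) : ℂ),
    isCharacter_of_hom (Ψ.comp Abelianization.of), ?_⟩
  intro x
  have h5 : (MonoidHom.ofInjective hinj).symm ⟨f₀ x, x, rfl⟩ = x := by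
    rw [MulEquiv.symm_apply_eq]
    exact Subtype.ext (MonoidHom.ofInjective_apply hinj).symm
  have h6 : Ψ (f₀ x) = lam x := by
    have h7 := congrArg (fun F : ↥f₀.range →* ℂˣ => F ⟨f₀ x, x, rfl⟩) hΨ
    simp only [MonoidHom.comp_apply, MulEquiv.coe_toMonoidHom, h5] at h7
    exact h7
  have hφx : φ x = ((lam x : ℂˣ) : ℂ) := congrFun hlam x
  show ((Ψ (Abelianization.of ⟨(x : G), x.2.1⟩) : ℂˣ) : ℂ) = φ x
  rw [hφx, ← h6, hf₀]
  rfl

/-- Let `N ⊴ G` with `G/N` a `p`-group, `P` a Sylow `p`-subgroup with `P ∩ N` central in `P`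
and all linear characters of `P ∩ N` extendible to `P`.  Then every invariant irreducible
character of `N` extends to `G`. -/
theorem exists_irr_extension_of_central_inf [Fintype G] (p : ℕ) [Fact p.Prime] (N : Subgroup G)
    [hN : N.Normal] (hind : ∃ k : ℕ, N.index = p ^ k) (P : Sylow p G)
    (hcent : ∀ x ∈ (P : Subgroup G) ⊓ N, ∀ y ∈ (P : Subgroup G), x * y = y * x)
    (hlin : ∀ lam : ↥((P : Subgroup G) ⊓ N) → ℂ, IsCharacter ↥((P : Subgroup G) ⊓ N) lam →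
      lam 1 = 1 → ∃ μ : ↥(P : Subgroup G) → ℂ, IsCharacter ↥(P : Subgroup G) μ ∧ μ 1 = 1 ∧
        ∀ x : ↥((P : Subgroup G) ⊓ N), μ ⟨(x : G), x.2.1⟩ = lam x)
    (ϑ : N → ℂ) (hϑ : IsIrrCharacter N ϑ)
    (hinv : ∀ (g : G) (n : N), ϑ ⟨g * n * g⁻¹, hN.conj_mem (n : G) n.2 g⟩ = ϑ n) :
    ∃ χ : G → ℂ, IsIrrCharacter G χ ∧ ∀ n : N, χ n = ϑ n := by
  classical
  have hp : p.Prime := Fact.out
  obtain ⟨E, φ, hE, hEN, hφ, hφinv, m, hpm, hm⟩ :=
    exists_elementary_invariant p hp N hind ϑ hϑ hinv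
  have hP := comm_inf_eq_one_of_ext (P : Subgroup G) N hcent hlin
  obtain ⟨P', hP'⟩ := elementary_commutator_le p E hE
  have hE1 : ∀ z ∈ N, z ∈ ⁅E, E⁆ → z = 1 := fun z hzN hz =>
    comm_inf_eq_one_sylow p N P P' hP z hzN (hP' hz)
  obtain ⟨ψ, hψ, hψφ⟩ := exists_linear_extension_of_comm_inf E N hE1 φ hφ
  have hΨ : IsCharacter G (indFun E ψ) := isCharacter_indFun E hψ
  have hcl : classInner (fun n : N => indFun E ψ n) ϑ = (m : ℂ) := by
    have h1 := sum_indFun_weight N E ψ (fun n => conj (ϑ n))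
      (by intro g n; exact congrArg (starRingEnd ℂ) (hinv g n))
    rw [hEN, Subgroup.index_top, Nat.cast_one, one_mul] at h1
    have h0 : classInner (fun n : N => indFun E ψ n) ϑ
        = (Nat.card N : ℂ)⁻¹ * ∑ n : N, indFun E ψ n * conj (ϑ n) := rfl
    rw [h0, h1]
    have h2 := congrArg (starRingEnd ℂ) hm
    rw [finsum_eq_sum_of_fintype, map_mul, map_sum, map_inv₀, Complex.conj_natCast,
      Complex.conj_natCast] at h2
    rw [← h2]
    congr 1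
    apply Finset.sum_congr rfl
    intro x _
    rw [map_mul, Complex.conj_conj, hψφ, mul_comm]
  have hdec := classFun_eq_sum_classInner (isClassFunction_of_isCharacter hΨ)
  have hc : ∀ χ : IrrCharacter G, ∃ c : ℕ, classInner (indFun E ψ) (χ : G → ℂ) = c := fun χ =>
    classInner_char_nat hΨ (isCharacter_of_isIrrCharacter χ.2)
  choose c hc using hc
  have he : ∀ χ : IrrCharacter G, ∃ e : ℕ,
      classInner (fun n : N => (χ : G → ℂ) n) ϑ = e := fun χ =>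
    classInner_char_nat (isCharacter_restrict N (isCharacter_of_isIrrCharacter χ.2))
      (isCharacter_of_isIrrCharacter hϑ)
  choose e he using he
  have hΨn : ∀ g : G, indFun E ψ g = ∑ χ : IrrCharacter G, (c χ : ℂ) * (χ : G → ℂ) g := by
    intro g
    have h := congrFun hdec g
    rw [Finset.sum_apply] at h
    rw [h]
    apply Finset.sum_congr rfl
    intro χ _
    rw [Pi.smul_apply, smul_eq_mul, hc]
  have hsum : (m : ℂ) = ∑ χ : IrrCharacter G, (c χ : ℂ) * (e χ : ℂ) := by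
    rw [← hcl]
    have h0 : classInner (fun n : N => indFun E ψ n) ϑ
        = (Nat.card N : ℂ)⁻¹ * ∑ n : N, indFun E ψ n * conj (ϑ n) := rfl
    rw [h0]
    have h1 : ∀ n : N, indFun E ψ n * conj (ϑ n)
        = ∑ χ : IrrCharacter G, (c χ : ℂ) * ((χ : G → ℂ) n * conj (ϑ n)) := by
      intro n
      rw [hΨn, Finset.sum_mul]
      apply Finset.sum_congr rfl
      intro χ _
      rw [mul_assoc]
    rw [Finset.sum_congr rfl (fun n _ => h1 n), Finset.sum_comm, Finset.mul_sum]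
    apply Finset.sum_congr rfl
    intro χ _
    rw [← Finset.mul_sum, mul_left_comm, ← he]
    rfl
  have hsumN : m = ∑ χ : IrrCharacter G, c χ * e χ := by exact_mod_cast hsum
  have hex : ∃ χ : IrrCharacter G, ¬ p ∣ c χ * e χ := by
    by_contra hall
    push Not at hall
    exact hpm (hsumN ▸ Finset.dvd_sum (fun χ _ => hall χ))
  obtain ⟨χ, hχ⟩ := hex
  have hpe : ¬ p ∣ e χ := fun h => hχ (Dvd.dvd.mul_left h _)
  have he0 : e χ ≠ 0 := by
    intro h0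
    apply hpe
    rw [h0]
    exact dvd_zero p
  have hdvd := mult_dvd_index_of_invariant N χ ⟨ϑ, hϑ⟩ hinv (e χ) (he χ) he0
  obtain ⟨k, hk⟩ := hind
  rw [hk] at hdvd
  obtain ⟨i, _, hi⟩ := (Nat.dvd_prime_pow hp).mp hdvd
  have hi0 : i = 0 := by
    by_contra h0
    exact hpe (hi ▸ dvd_pow_self p h0)
  rw [hi0, pow_zero] at hi
  obtain ⟨e', he'0, hres, he'⟩ := clifford_invariant N ϑ hϑ hinv (χ : G → ℂ) χ.2
    (by rw [he χ]; exact_mod_cast he0)
  have he1 : e' = 1 := by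
    have h1 : (e' : ℂ) = (e χ : ℂ) := by rw [← he', he χ]
    have h2 : e' = e χ := by exact_mod_cast h1
    rw [h2, hi]
  refine ⟨χ, χ.2, fun n => ?_⟩
  have h3 := congrFun hres n
  rw [he1] at h3
  simpa using h3

end Cfsg.Agent.Helper7
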