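import Mathlib
import Cfsg.Agent.Helper7.DefZero
import Cfsg.Agent.Helper25.FSCount
import Cfsg.Agent.Helper2.CharExtra

/-!
# Even-degree characters from real elements with a unique square root (helper7)

If `x ≠ 1` is conjugate to its inverse and `C_G(x)` has odd order, then `G` has an irreducible
character of even degree: otherwise `∑_χ χ(x)` would be both `≡ 0` and `≡ 1` modulo `2`.
-/

set_option autoImplicit false

namespace Cfsg.Agent.Helper7

open Cfsg

universe u

section EvenDeg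

variable {G : Type u} [Group G]

/-- The sum of an invariant function over a finset on which a permutation of prime order `r`
acts without fixed points is `r` times an algebraic integer. -/
theorem ed_sum_orbit {α : Type*} [DecidableEq α] (r : ℕ) [Fact r.Prime] (f : Equiv.Perm α)
    (hf : f ^ r = 1) (F : Finset α) (hst : ∀ a, f a ∈ F ↔ a ∈ F) (hfree : ∀ a ∈ F, f a ≠ a)
    (φ : α → ℂ) (hφ : ∀ a, φ (f a) = φ a) (hint : ∀ a ∈ F, IsIntegral ℤ (φ a)) :
    ∃ β : ℂ, IsIntegral ℤ β ∧ ∑ a ∈ F, φ a = (r : ℂ) * β := by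
  classical
  have hr := (Fact.out : r.Prime)
  rw [Finset.sum_comp (fun b : ℂ => b) φ]
  have hdv : ∀ b : ℂ, r ∣ (F.filter (fun a : α => φ a = b)).card := by
    intro b
    apply dz_card_dvd r f hf
    · intro a
      rw [Finset.mem_filter, Finset.mem_filter, hst, hφ]
    · intro a ha
      rw [Finset.mem_filter] at ha
      exact hfree a ha.1
  refine ⟨∑ b ∈ F.image φ, ((F.filter (fun a : α => φ a = b)).card / r) • b, ?_, ?_⟩
  · apply IsIntegral.sum
    intro b hb
    obtain ⟨a, ha, rfl⟩ := Finset.mem_image.mp hb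
    exact (hint a ha).nsmul _
  · rw [Finset.mul_sum]
    apply Finset.sum_congr rfl
    intro b _
    obtain ⟨m, hm⟩ := hdv b
    rw [hm, Nat.mul_div_cancel_left m hr.pos, nsmul_eq_mul, nsmul_eq_mul]
    push_cast
    ring

/-- A nontrivial real element with centralizer of odd order forces an irreducible character of
even degree. -/
theorem ed_exists_even [Finite G] (x c : G) (hx1 : x ≠ 1) (hreal : c * x * c⁻¹ = x⁻¹)
    (hodd : Odd (Nat.card ↥(Subgroup.centralizer ({x} : Set G)))) :
    ∃ χ : IrrCharacter G, Even (charDegree (χ : G → ℂ)) := by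
  classical
  have := Fintype.ofFinite G
  by_contra hall
  push Not at hall
  have hxmem : x ∈ Subgroup.centralizer ({x} : Set G) := by
    rw [Subgroup.mem_centralizer_iff]
    intro h hh
    rw [Set.mem_singleton_iff] at hh
    rw [hh]
  have hcentodd : ∀ u ∈ Subgroup.centralizer ({x} : Set G), Odd (orderOf u) := fun u hu =>
    hodd.of_dvd_nat (Subgroup.orderOf_dvd_natCard _ hu)
  obtain ⟨k, hk⟩ := hcentodd x hxmem
  have hu0 : x ^ (k + 1) * x ^ (k + 1) = x := by
    rw [← pow_add]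
    have e : k + 1 + (k + 1) = orderOf x + 1 := by omega
    rw [e, pow_succ, pow_orderOf_eq_one, one_mul]
  have hsq : (Finset.univ.filter (fun u : G => u * u = x)).card = 1 := by
    rw [Finset.card_eq_one]
    refine ⟨x ^ (k + 1), ?_⟩
    ext u
    rw [Finset.mem_filter, Finset.mem_singleton]
    constructor
    · rintro ⟨-, hu⟩
      have hux : u * x = x * u := by rw [← hu, mul_assoc]
      have humem : u ∈ Subgroup.centralizer ({x} : Set G) := by
        rw [Subgroup.mem_centralizer_iff]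
        intro h hh
        rw [Set.mem_singleton_iff] at hh
        rw [hh]
        exact hux.symm
      have hv0mem : x ^ (k + 1) ∈ Subgroup.centralizer ({x} : Set G) :=
        Subgroup.pow_mem _ hxmem _
      have hcomm : Commute u (x ^ (k + 1)) := Commute.pow_right hux _
      have hvmem : u * (x ^ (k + 1))⁻¹ ∈ Subgroup.centralizer ({x} : Set G) :=
        Subgroup.mul_mem _ humem (Subgroup.inv_mem _ hv0mem)
      have hvv : (u * (x ^ (k + 1))⁻¹) ^ 2 = 1 := by
        rw [(hcomm.inv_right).mul_pow, pow_two, hu, inv_pow, pow_two, hu0, mul_inv_cancel]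
      have hvord : orderOf (u * (x ^ (k + 1))⁻¹) ∣ 2 := orderOf_dvd_of_pow_eq_one hvv
      have hvodd := hcentodd _ hvmem
      have hv1 : orderOf (u * (x ^ (k + 1))⁻¹) = 1 := by
        rcases (Nat.dvd_prime Nat.prime_two).mp hvord with h | h
        · exact h
        · rw [h] at hvodd
          exact absurd hvodd (by decide)
      rw [orderOf_eq_one_iff] at hv1
      exact mul_inv_eq_one.mp hv1
    · rintro rfl
      exact ⟨Finset.mem_univ _, hu0⟩
  have hfs := Cfsg.Agent.Helper25.fs_sum_eq_card_sqrt x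
  rw [hsq, Nat.cast_one] at hfs
  have horth : ∑ χ : IrrCharacter G, (χ : G → ℂ) x * (χ : G → ℂ) 1 = 0 := by
    have h := Cfsg.Agent.Helper25.second_orthogonality x (1 : G)
    rw [inv_one] at h
    rw [h, if_neg]
    intro hc
    exact hx1 (isConj_one_left.mp hc)
  have hdeg : ∀ χ : IrrCharacter G, ∃ m : ℕ, (χ : G → ℂ) 1 = 2 * (m : ℂ) + 1 := by
    intro χ
    obtain ⟨m, hm⟩ := Nat.not_even_iff_odd.mp (hall χ)
    refine ⟨m, ?_⟩
    rw [Cfsg.Agent.Helper25.char_one_eq_degree (Cfsg.Agent.Helper25.irr_isCharacter χ), hm]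
    push_cast
    ring
  choose m hm using hdeg
  have hsum1 : ∑ χ : IrrCharacter G, (χ : G → ℂ) x =
      2 * (-(∑ χ : IrrCharacter G, (m χ : ℂ) * (χ : G → ℂ) x)) := by
    have h : ∑ χ : IrrCharacter G, (χ : G → ℂ) x * (χ : G → ℂ) 1 =
        2 * ∑ χ : IrrCharacter G, (m χ : ℂ) * (χ : G → ℂ) x +
          ∑ χ : IrrCharacter G, (χ : G → ℂ) x := by
      rw [Finset.mul_sum, ← Finset.sum_add_distrib]
      apply Finset.sum_congr rfl
      intro χ _
      rw [hm χ]
      ring
    rw [horth] at h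
    linear_combination (-1 : ℂ) * h
  -- complex conjugation on irreducible characters
  obtain ⟨cj, hcj⟩ : ∃ cj : IrrCharacter G → IrrCharacter G, cj = fun χ =>
      ⟨fun g => starRingEnd ℂ ((χ : G → ℂ) g), Cfsg.Agent.Helper2.isIrrCharacter_conj χ.2⟩ :=
    ⟨_, rfl⟩
  have hcjv : ∀ (χ : IrrCharacter G) (g : G),
      ((cj χ : IrrCharacter G) : G → ℂ) g = starRingEnd ℂ ((χ : G → ℂ) g) := by
    intro χ g
    rw [hcj]
  have hinv : Function.Involutive cj := by
    intro χ
    apply Subtype.ext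
    funext g
    rw [hcjv, hcjv, Complex.conj_conj]
  obtain ⟨F, hF⟩ : ∃ F : Finset (IrrCharacter G),
      F = Finset.univ.filter (fun χ : IrrCharacter G => ¬ ∀ g : G, ((χ : G → ℂ) g).im = 0) :=
    ⟨_, rfl⟩
  have hFmem : ∀ χ : IrrCharacter G, χ ∈ F ↔ ¬ ∀ g : G, ((χ : G → ℂ) g).im = 0 := by
    intro χ
    rw [hF]
    simp
  obtain ⟨β₁, hβ₁i, hβ₁⟩ := ed_sum_orbit 2 (hinv.toPerm cj)
    (by
      apply Equiv.ext
      intro χ
      rw [pow_two, Equiv.Perm.mul_apply]
      exact hinv χ)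
    F
    (by
      intro χ
      show cj χ ∈ F ↔ χ ∈ F
      rw [hFmem, hFmem]
      simp only [hcjv, Complex.conj_im, neg_eq_zero])
    (by
      intro χ hχ hfix
      have hfix' : cj χ = χ := hfix
      rw [hFmem] at hχ
      apply hχ
      intro g
      have h1 := hcjv χ g
      rw [hfix'] at h1
      exact Complex.conj_eq_iff_im.mp h1.symm)
    (fun χ => (χ : G → ℂ) x)
    (by
      intro χ
      show ((cj χ : IrrCharacter G) : G → ℂ) x = (χ : G → ℂ) x
      rw [hcjv, ← Cfsg.Agent.Helper25.irr_inv, ← hreal, Cfsg.Agent.Helper25.irr_conj])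
    (fun χ _ => Cfsg.Agent.Helper25.irr_isIntegral χ x)
  -- the real part
  have hcases : ∀ χ : IrrCharacter G, ∃ s : ℂ, IsIntegral ℤ s ∧
      (1 - Cfsg.Agent.Helper24.fsInd (χ : G → ℂ)) * (χ : G → ℂ) x =
        (if χ ∈ F then (χ : G → ℂ) x else 0) + 2 * s := by
    intro χ
    rcases Cfsg.Agent.Helper24.fsInd_cases χ with ⟨h0, hnr⟩ | ⟨h1 | h1, hre⟩
    · refine ⟨0, isIntegral_zero, ?_⟩
      rw [if_pos ((hFmem χ).mpr hnr), h0]
      ring
    · refine ⟨0, isIntegral_zero, ?_⟩
      rw [if_neg (fun h => ((hFmem χ).mp h) hre), h1]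
      ring
    · refine ⟨(χ : G → ℂ) x, Cfsg.Agent.Helper25.irr_isIntegral χ x, ?_⟩
      rw [if_neg (fun h => ((hFmem χ).mp h) hre), h1]
      ring
  choose s hsi hs using hcases
  have hsum2 : ∑ χ : IrrCharacter G, (χ : G → ℂ) x =
      1 + 2 * β₁ + 2 * ∑ χ : IrrCharacter G, s χ := by
    have e1 : ∑ χ : IrrCharacter G, (χ : G → ℂ) x =
        ∑ χ : IrrCharacter G, Cfsg.Agent.Helper24.fsInd (χ : G → ℂ) * (χ : G → ℂ) x +
        ∑ χ : IrrCharacter G, (1 - Cfsg.Agent.Helper24.fsInd (χ : G → ℂ)) * (χ : G → ℂ) x := by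
      rw [← Finset.sum_add_distrib]
      apply Finset.sum_congr rfl
      intro χ _
      ring
    rw [e1, hfs, Finset.sum_congr rfl (fun χ _ => hs χ), Finset.sum_add_distrib,
      ← Finset.sum_filter, ← Finset.mul_sum]
    have e2 : Finset.univ.filter (fun χ : IrrCharacter G => χ ∈ F) = F := by
      ext χ
      simp
    rw [e2, hβ₁]
    push_cast
    ring
  have hhalf : ((1 : ℕ) : ℂ) / ((2 : ℕ) : ℂ) =
      -(∑ χ : IrrCharacter G, (m χ : ℂ) * (χ : G → ℂ) x) - β₁ - ∑ χ : IrrCharacter G, s χ := by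
    have h := hsum1.symm.trans hsum2
    push_cast
    linear_combination (-1 / 2 : ℂ) * h
  have hint : IsIntegral ℤ (((1 : ℕ) : ℂ) / ((2 : ℕ) : ℂ)) := by
    rw [hhalf]
    refine ((IsIntegral.sum _ ?_).neg.sub hβ₁i).sub (IsIntegral.sum _ (fun χ _ => hsi χ))
    intro χ _
    exact (isIntegral_algebraMap (R := ℤ) (A := ℂ) (x := (m χ : ℤ))).mul
      (Cfsg.Agent.Helper25.irr_isIntegral χ x) |> fun h => by simpa using h
  have h21 := Cfsg.Agent.Helper1.dvd_of_isIntegral_div 1 2 (by norm_num) hint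
  omega

end EvenDeg

end Cfsg.Agent.Helper7
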