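import Mathlib
import Cfsg.Agent.Helper7.Defect
import Cfsg.Agent.Helper7.LinChar
import Cfsg.Agent.Helper7.ElemExt
import Cfsg.Agent.Helper2.CharExtra
import Cfsg.Agent.Helper2.CentralDefect
import Cfsg.Agent.Helper1.CharComplete

/-!
# Height-zero characters and central linear characters (helper7)

* `exists_hom_extension_of_comm`: a linear character of `Z ≤ D` that is trivial on `Z ∩ D'`
  extends to `D`.
* `li_char_of_central_comm`: if a central element `z` lies in the derived subgroup of `C_G(g)` and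
  acts on `χ` by a nontrivial `p`-power root of unity, then `χ(g)` lies in the local ideal.
* `height_zero_lam_trivial`: for a height-zero character over `lam`, `lam` is trivial on `Z ∩ D'`.
-/

set_option autoImplicit false

namespace Cfsg.Agent.Helper7

open Cfsg Cfsg.Agent.Helper25
open scoped ComplexConjugate

universe u

variable {G : Type u} [Group G] {p : ℕ} {M : Ideal AlgInt}

theorem exists_hom_extension_of_comm [Finite G] (D Z : Subgroup G) (hZD : Z ≤ D)
    (lam : ↥Z →* ℂˣ) (h : ∀ z : ↥Z, (z : G) ∈ ⁅D, D⁆ → lam z = 1) :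
    ∃ μ : ↥D →* ℂˣ, ∀ z : ↥Z, μ ⟨(z : G), hZD z.2⟩ = lam z := by
  classical
  obtain ⟨f₀, hf₀⟩ : ∃ f₀ : ↥Z →* Abelianization ↥D,
      f₀ = (Abelianization.of).comp (Subgroup.inclusion hZD) := ⟨_, rfl⟩
  have hker : f₀.rangeRestrict.ker ≤ lam.ker := by
    intro a ha
    rw [MonoidHom.ker_rangeRestrict, hf₀] at ha
    have h2 : Subgroup.inclusion hZD a ∈ (Abelianization.of (G := ↥D)).ker := ha
    rw [Abelianization.ker_of] at h2
    have h3 : (a : G) ∈ ⁅D, D⁆ := by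
      rw [← Subgroup.map_subtype_commutator]
      exact ⟨_, h2, rfl⟩
    exact h a h3
  obtain ⟨lam', hlam'⟩ : ∃ lam' : ↥f₀.range →* ℂˣ,
      ∀ x : ↥Z, lam' (f₀.rangeRestrict x) = lam x :=
    ⟨f₀.rangeRestrict.liftOfSurjective (MonoidHom.rangeRestrict_surjective f₀) ⟨lam, hker⟩,
      fun x => MonoidHom.liftOfRightInverse_comp_apply _ _ _ _ x⟩
  haveI : NeZero ((Monoid.exponent (Abelianization ↥D) : ℕ) : ℂ) := ⟨by
    have := Monoid.exponent_ne_zero_of_finite (G := Abelianization ↥D)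
    exact_mod_cast this⟩
  obtain ⟨Ψ, hΨ⟩ := MonoidHom.domRestrict_surjective (M := ℂ) f₀.range lam'
  refine ⟨Ψ.comp Abelianization.of, fun z => ?_⟩
  have h7 := DFunLike.congr_fun hΨ (f₀.rangeRestrict z)
  rw [hlam'] at h7
  rw [← h7, hf₀]
  rfl

theorem li_char_of_central_comm [Finite G] (hM : IsPModular p M) (χ : IrrCharacter G) (g z : G)
    (hz : z ∈ Subgroup.center G)
    (hzc : z ∈ ⁅Subgroup.centralizer ({g} : Set G), Subgroup.centralizer ({g} : Set G)⁆)
    (c : ℂ) (hc : (χ : G → ℂ) z = (χ : G → ℂ) 1 * c) (hc1 : c ≠ 1) (k : ℕ)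
    (hck : c ^ (p ^ k) = 1) : MemLocalIdeal M ((χ : G → ℂ) g) := by
  classical
  have hp := hM.1
  letI : Fintype G := Fintype.ofFinite G
  obtain ⟨C, hC⟩ : ∃ C : Subgroup G, C = Subgroup.centralizer ({g} : Set G) := ⟨_, rfl⟩
  rw [← hC] at hzc
  have hgC : g ∈ C := by
    rw [hC, Subgroup.mem_centralizer_iff]
    intro h hh
    rw [Set.mem_singleton_iff.mp hh]
  have hzC : z ∈ C := by
    rw [hC, Subgroup.mem_centralizer_iff]
    intro h _
    exact (Subgroup.mem_center_iff.mp hz h)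
  obtain ⟨c₀, -, hc₀⟩ := Helper2.irr_central_mul χ z hz
  have hcc : c₀ = c := by
    have h1 := hc₀ 1
    rw [mul_one, hc] at h1
    have h0 := irr_one_ne_zero χ
    have h2 : (χ : G → ℂ) 1 * c₀ = (χ : G → ℂ) 1 * c := by rw [h1]; ring
    exact mul_left_cancel₀ h0 h2
  rw [hcc] at hc₀
  have hψ : IsCharacter ↥C (fun h : ↥C => (χ : G → ℂ) h) :=
    Helper2.isCharacter_restrict C (irr_isCharacter χ)
  have hdec := Helper2.classFun_eq_sum_classInner (Helper2.isClassFunction_of_isCharacter hψ)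
  have hval : (χ : G → ℂ) g = ∑ θ : IrrCharacter ↥C,
      classInner (fun h : ↥C => (χ : G → ℂ) h) (θ : ↥C → ℂ) * (θ : ↥C → ℂ) ⟨g, hgC⟩ := by
    have h1 := congrFun hdec ⟨g, hgC⟩
    simp only [Finset.sum_apply, Pi.smul_apply, smul_eq_mul] at h1
    exact h1
  rw [hval]
  apply li_sum hM
  intro θ _
  obtain ⟨n, hn⟩ := Helper2.classInner_char_nat hψ (irr_isCharacter θ)
  rw [hn]
  by_cases hn0 : n = 0
  · rw [hn0, Nat.cast_zero, zero_mul]
    exact li_zero hM
  apply lr_mul_li hM (lr_natCast hM n)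
  obtain ⟨m, σ, hσ, hθ⟩ := θ.2
  haveI := hσ
  have hz'c : (⟨z, hzC⟩ : ↥C) ∈ Subgroup.center ↥C := by
    rw [Subgroup.mem_center_iff]
    intro y
    apply Subtype.ext
    exact Subgroup.mem_center_iff.mp hz y
  have hcomm : ∀ y, σ ⟨z, hzC⟩ ∘ₗ σ y = σ y ∘ₗ σ ⟨z, hzC⟩ := by
    intro y
    rw [← Module.End.mul_eq_comp, ← Module.End.mul_eq_comp, ← map_mul, ← map_mul,
      (Subgroup.mem_center_iff.mp hz'c y)]
  obtain ⟨c', hc'⟩ := Helper1.exists_scalar_of_commute σ (σ ⟨z, hzC⟩) hcomm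
  have hmul : ∀ y : ↥C, (θ : ↥C → ℂ) (⟨z, hzC⟩ * y) = c' * (θ : ↥C → ℂ) y := by
    intro y
    rw [← hθ]
    simp only [Representation.character, map_mul, hc']
    rw [Module.End.mul_eq_comp, LinearMap.smul_comp, LinearMap.id_comp, map_smul, smul_eq_mul]
  have hS : (Nat.card ↥C : ℂ)⁻¹ * ∑ y : ↥C, (χ : G → ℂ) y * conj ((θ : ↥C → ℂ) y)
      = (n : ℂ) := hn
  have key : ∑ y : ↥C, (χ : G → ℂ) ((⟨z, hzC⟩ * y : ↥C) : G)
        * conj ((θ : ↥C → ℂ) (⟨z, hzC⟩ * y))
      = ∑ y : ↥C, (χ : G → ℂ) y * conj ((θ : ↥C → ℂ) y) :=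
    Fintype.sum_equiv (Equiv.mulLeft (⟨z, hzC⟩ : ↥C)) _ _ (fun y => rfl)
  have hsum : ∑ y : ↥C, (χ : G → ℂ) y * conj ((θ : ↥C → ℂ) y)
      = (c * conj c') * ∑ y : ↥C, (χ : G → ℂ) y * conj ((θ : ↥C → ℂ) y) := by
    rw [Finset.mul_sum, ← key]
    apply Finset.sum_congr rfl
    intro y _
    rw [hmul y, map_mul]
    have h1 : (χ : G → ℂ) ((⟨z, hzC⟩ * y : ↥C) : G) = c * (χ : G → ℂ) y := hc₀ (y : G)
    rw [h1]
    ring
  have hS0 : ∑ y : ↥C, (χ : G → ℂ) y * conj ((θ : ↥C → ℂ) y) ≠ 0 := by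
    intro h0
    rw [h0, mul_zero] at hS
    exact hn0 (by exact_mod_cast hS.symm)
  have hcc' : c * conj c' = 1 := by
    have h3 : (c * conj c' - 1) * ∑ y : ↥C, (χ : G → ℂ) y * conj ((θ : ↥C → ℂ) y) = 0 := by
      rw [sub_mul, one_mul, ← hsum, sub_self]
    rcases mul_eq_zero.mp h3 with h | h
    · exact sub_eq_zero.mp h
    · exact absurd h hS0
  have hdet : c' ^ m = 1 := by
    have hz'comm : (⟨z, hzC⟩ : ↥C) ∈ commutator ↥C := by
      have h5 : z ∈ (commutator ↥C).map C.subtype := by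
        rw [Subgroup.map_subtype_commutator]
        exact hzc
      obtain ⟨y, hy, hyz⟩ := h5
      have h6 : y = ⟨z, hzC⟩ := Subtype.ext hyz
      rwa [← h6]
    have h6 : detHom σ ⟨z, hzC⟩ = 1 :=
      (Abelianization.commutator_subset_ker (detHom σ)) hz'comm
    have h7 : ((detHom σ ⟨z, hzC⟩ : ℂˣ) : ℂ) = LinearMap.det (σ ⟨z, hzC⟩) := detHom_apply σ _
    rw [h6, hc', LinearMap.det_smul, LinearMap.det_id, mul_one, Units.val_one] at h7
    simpa using h7.symm
  have hcm : c ^ m = 1 := by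
    have h8 : (c * conj c') ^ m = 1 := by rw [hcc', one_pow]
    rw [mul_pow, ← map_pow, hdet, map_one, mul_one] at h8
    exact h8
  have hpm : p ∣ m := by
    have h9 : orderOf c ∣ m := orderOf_dvd_of_pow_eq_one hcm
    have h10 : orderOf c ∣ p ^ k := orderOf_dvd_of_pow_eq_one hck
    obtain ⟨j, -, hj⟩ := (Nat.dvd_prime_pow hp).mp h10
    have hj0 : j ≠ 0 := by
      rintro rfl
      rw [pow_zero, orderOf_eq_one_iff] at hj
      exact hc1 hj
    rw [hj] at h9
    exact (dvd_pow_self p hj0).trans h9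
  have hθ1 : (θ : ↥C → ℂ) 1 = (m : ℂ) := by
    rw [← hθ]
    exact rep_char_one σ
  have hidx : (Subgroup.centralizer ({(⟨g, hgC⟩ : ↥C)} : Set ↥C)).index = 1 := by
    rw [Subgroup.index_eq_one, Subgroup.eq_top_iff']
    intro y
    rw [Subgroup.mem_centralizer_iff]
    intro h hh
    rw [Set.mem_singleton_iff.mp hh]
    apply Subtype.ext
    have hy : (y : G) ∈ Subgroup.centralizer ({g} : Set G) := by
      rw [← hC]
      exact y.2
    rw [Subgroup.mem_centralizer_iff] at hy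
    exact hy g rfl
  have hθg : (θ : ↥C → ℂ) ⟨g, hgC⟩ = centralChar (θ : ↥C → ℂ) ⟨g, hgC⟩ * (m : ℂ) := by
    have hm0 : (m : ℂ) ≠ 0 := by
      rw [← hθ1]
      exact irr_one_ne_zero θ
    unfold centralChar
    rw [hidx, hθ1, Nat.cast_one, one_mul]
    field_simp
  rw [hθg]
  exact lr_mul_li hM (lr_centralChar hM θ _) ((li_natCast_iff hM m).mpr hpm)

/-- For a height-zero character `χ` of a block with defect group `D` lying over the linear
character `lam` of the central `p`-subgroup `Z`, `lam` is trivial on `Z ∩ D'`. -/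
theorem height_zero_lam_trivial [Finite G] [Fact p.Prime] (hM : IsPModular p M)
    {B : Set (IrrCharacter G)} (hB : IsPBlock M B) {D : Subgroup G}
    (hD : IsDefectGroup p M B D) (Z : Subgroup G) (hZc : Z ≤ Subgroup.center G)
    (hZp : IsPGroup p ↥Z) (lam : ↥Z →* ℂˣ) (χ : IrrCharacter G) (hχ : χ ∈ B)
    (hover : ∀ z : ↥Z, (χ : G → ℂ) z = (χ : G → ℂ) 1 * (lam z : ℂ))
    (h0 : blockHeight p B (χ : G → ℂ) = 0) (z : ↥Z) (hz : (z : G) ∈ ⁅D, D⁆) : lam z = 1 := by
  obtain ⟨g, hg, P, rfl⟩ := hD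
  by_contra hne
  apply not_li_char_of_height_zero hM hB hg hχ h0
  obtain ⟨k, hk⟩ := hZp z
  have hle : (P : Subgroup (Subgroup.centralizer ({g} : Set G))).map
      (Subgroup.centralizer ({g} : Set G)).subtype ≤ Subgroup.centralizer ({g} : Set G) :=
    Subgroup.map_subtype_le _
  refine li_char_of_central_comm hM χ g (z : G) (hZc z.2)
    (Subgroup.commutator_mono hle hle hz) ((lam z : ℂˣ) : ℂ) (hover z) ?_ k ?_
  · intro h1
    exact hne (Units.ext h1)
  · rw [← Units.val_pow_eq_pow_val, ← map_pow, hk, map_one, Units.val_one]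

end Cfsg.Agent.Helper7
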