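import Mathlib
import Cfsg.Agent.Helper7.ElemInv
import Cfsg.Agent.Helper7.Clifford
import Cfsg.Agent.Helper7.DetChar
import Cfsg.Agent.Helper7.ExtSyl
import Cfsg.Agent.Helper11.GalConj
import Cfsg.Agent.Helper24.InvConst
import Cfsg.Agent.Helper2.Cliff
import Cfsg.Agent.Helper25.CharKer
import Cfsg.Agent.Helper1.Burnside
import Cfsg.Agent.S0161
import Cfsg.Agent.S0886

/-!
# Galois-fixed characters over a normal subgroup of odd index (helper7)

For a power map `g ↦ g ^ k` of `2`-power order inverting the elements of odd order: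

* `sigma_inner_parity`: for fixed `χ₁, χ₂ ∈ Irr(G)` and `N ⊴ G` of odd index,
  `[χ₁|N, χ₂|N] ≡ δ (mod 2)`.
* `sigma_unique`: at most one fixed character lies over a given `θ ∈ Irr(N)`.
* `exists_sigma_fixed_over`: a fixed `θ` has a fixed character over it.
* `sigma_ext`: an invariant fixed `θ` has a fixed extension.
-/

set_option autoImplicit false

namespace Cfsg.Agent.Helper7

open Cfsg Cfsg.Agent.Helper25 Cfsg.Agent.Helper2
open scoped ComplexConjugate

universe u

section Perm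

open Classical in
/-- Weighted fixed-point congruence for a permutation of `2`-power order. -/
theorem sum_mod_two_perm {X : Type*} [Fintype X] (π : Equiv.Perm X) (e : ℕ)
    (hπ : π ^ (2 ^ e) = 1) (f : X → ℕ) (hf : ∀ x, f (π x) = f x) :
    (∑ x, f x) % 2 = (∑ x with π x = x, f x) % 2 := by
  have hmem : ∀ g : Subgroup.zpowers π, ∃ n : ℕ, (g : Equiv.Perm X) = π ^ n := by
    intro g
    obtain ⟨n, hn⟩ := (mem_powers_iff_mem_zpowers (x := π)).mpr g.2
    exact ⟨n, hn.symm⟩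
  have hpowf : ∀ (n : ℕ) (x : X), f ((π ^ n) x) = f x := by
    intro n
    induction n with
    | zero => intro x; simp
    | succ n ih =>
      intro x
      rw [pow_succ, Equiv.Perm.mul_apply, ih, hf]
  have hfE : ∀ (g : Subgroup.zpowers π) (x : X), f (g • x) = f x := by
    intro g x
    obtain ⟨n, hn⟩ := hmem g
    have h1 : g • x = (π ^ n) x := by
      rw [← hn]
      rfl
    rw [h1, hpowf]
  have horb : ∀ x : X, (∃ g : Subgroup.zpowers π, g • x ≠ x) →
      2 ∣ (MulAction.orbit (Subgroup.zpowers π) x).ncard := by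
    intro x hx
    rw [← MulAction.index_stabilizer]
    have h1 : (MulAction.stabilizer (Subgroup.zpowers π) x).index
        ∣ Nat.card (Subgroup.zpowers π) := Subgroup.index_dvd_card _
    have h2 : Nat.card (Subgroup.zpowers π) ∣ 2 ^ e := by
      rw [Nat.card_zpowers]
      exact orderOf_dvd_of_pow_eq_one hπ
    obtain ⟨i, _, hi⟩ := (Nat.dvd_prime_pow Nat.prime_two).mp (h1.trans h2)
    rw [hi]
    have hi0 : i ≠ 0 := by
      rintro rfl
      rw [pow_zero] at hi
      have htop := Subgroup.index_eq_one.mp hi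
      obtain ⟨g, hg⟩ := hx
      apply hg
      have hgs : g ∈ MulAction.stabilizer (Subgroup.zpowers π) x := by
        rw [htop]
        exact Subgroup.mem_top g
      exact MulAction.mem_stabilizer_iff.mp hgs
    exact dvd_pow_self 2 hi0
  have hcong := sum_mod_eq_sum_fixed 2 horb f hfE
  rw [hcong]
  congr 1
  apply Finset.sum_congr _ (fun _ _ => rfl)
  ext x
  simp only [Finset.mem_filter, Finset.mem_univ, true_and]
  constructor
  · intro h
    exact h ⟨π, Subgroup.mem_zpowers π⟩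
  · intro h g
    obtain ⟨n, hn⟩ := hmem g
    have h1 : g • x = (π ^ n) x := by
      rw [← hn]
      rfl
    rw [h1]
    clear h1 hn
    induction n with
    | zero => simp
    | succ n ih => rw [pow_succ, Equiv.Perm.mul_apply, h, ih]

/-- If only one fixed point carries weight, the total weight is congruent to it mod 2. -/
theorem sum_mod_two_of_fixed_single {X : Type*} [Fintype X] (π : Equiv.Perm X) (e : ℕ)
    (hπ : π ^ (2 ^ e) = 1) (f : X → ℕ) (hf : ∀ x, f (π x) = f x) (x₀ : X)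
    (h0 : ∀ x, π x = x → x ≠ x₀ → f x = 0) (hx₀ : π x₀ = x₀) :
    (∑ x, f x) % 2 = f x₀ % 2 := by
  classical
  rw [sum_mod_two_perm π e hπ f hf]
  congr 1
  rw [Finset.sum_eq_single x₀]
  · intro x hx hne
    exact h0 x (Finset.mem_filter.mp hx).2 hne
  · intro h
    exfalso
    apply h
    rw [Finset.mem_filter]
    exact ⟨Finset.mem_univ _, hx₀⟩

/-- If the total weight is odd, some fixed point has odd weight. -/
theorem exists_fixed_odd {X : Type*} [Fintype X] (π : Equiv.Perm X) (e : ℕ)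
    (hπ : π ^ (2 ^ e) = 1) (f : X → ℕ) (hf : ∀ x, f (π x) = f x)
    (hodd : (∑ x, f x) % 2 = 1) : ∃ x, π x = x ∧ f x % 2 = 1 := by
  classical
  rw [sum_mod_two_perm π e hπ f hf] at hodd
  by_contra hno
  push Not at hno
  have h2 : ∀ x ∈ Finset.univ.filter (fun x => π x = x), 2 ∣ f x := by
    intro x hx
    have := hno x (Finset.mem_filter.mp hx).2
    omega
  have h3 := Finset.dvd_sum h2
  omega

end Perm

section Sigma

variable {G : Type u} [Group G]

/-- Every coset of a normal subgroup of odd index contains an element of odd order. -/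
theorem exists_odd_coset_rep [Finite G] (N : Subgroup G) [N.Normal] (hodd : Odd N.index)
    (g : G) : ∃ h : G, Odd (orderOf h) ∧ g⁻¹ * h ∈ N := by
  have ho : orderOf g ≠ 0 := (orderOf_pos g).ne'
  obtain ⟨a, b, hb, hab⟩ := Nat.exists_eq_two_pow_mul_odd ho
  have hcop : Nat.Coprime (2 ^ a) N.index :=
    Nat.Coprime.pow_left a (Nat.coprime_two_left.mpr hodd)
  obtain ⟨m, hm0, hm1⟩ := Nat.chineseRemainder hcop 0 1
  refine ⟨g ^ m, ?_, ?_⟩
  · have h1 : (g ^ m) ^ b = 1 := by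
      rw [← pow_mul]
      apply orderOf_dvd_iff_pow_eq_one.mp
      rw [hab]
      exact Nat.mul_dvd_mul ((Nat.modEq_zero_iff_dvd).mp hm0) dvd_rfl
    exact Odd.of_dvd_nat hb (orderOf_dvd_of_pow_eq_one h1)
  · rw [← QuotientGroup.eq, QuotientGroup.mk_pow]
    have h2 : orderOf (g : G ⧸ N) ∣ N.index := by
      rw [Subgroup.index_eq_card]
      exact orderOf_dvd_natCard _
    have h3 : m ≡ 1 [MOD orderOf (g : G ⧸ N)] := Nat.ModEq.of_dvd h2 hm1
    have h4 := (pow_eq_pow_iff_modEq (x := (g : G ⧸ N))).mpr h3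
    rw [h4, pow_one]

theorem pow_pow_two_pow_eq [Finite G] (k e : ℕ) (hke : k ^ (2 ^ e) ≡ 1 [MOD Nat.card G])
    (g : G) : g ^ (k ^ (2 ^ e)) = g := by
  have h1 : k ^ (2 ^ e) ≡ 1 [MOD orderOf g] := Nat.ModEq.of_dvd (orderOf_dvd_natCard g) hke
  have h2 := (pow_eq_pow_iff_modEq (x := g)).mpr h1
  rw [h2, pow_one]

theorem sum_pow_coprime [Fintype G] (k : ℕ) (hk : Nat.Coprime k (Nat.card G)) (F : G → ℂ) :
    ∑ g : G, F (g ^ k) = ∑ g : G, F g :=
  Equiv.sum_comp (powCoprime hk.symm) F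

theorem classInner_pow [Fintype G] (k : ℕ) (hk : Nat.Coprime k (Nat.card G)) (φ ψ : G → ℂ) :
    classInner (fun g => φ (g ^ k)) (fun g => ψ (g ^ k)) = classInner φ ψ := by
  unfold classInner
  congr 1
  exact sum_pow_coprime k hk (fun g => φ g * conj (ψ g))

theorem sigma_hyp_subgroup [Finite G] (H : Subgroup G) (k e : ℕ)
    (hk : Nat.Coprime k (Nat.card G)) (hke : k ^ (2 ^ e) ≡ 1 [MOD Nat.card G])
    (hk₂ : ∀ g : G, Odd (orderOf g) → g ^ k = g⁻¹) :
    Nat.Coprime k (Nat.card H) ∧ k ^ (2 ^ e) ≡ 1 [MOD Nat.card H] ∧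
      ∀ h : H, Odd (orderOf h) → h ^ k = h⁻¹ := by
  have hdvd : Nat.card H ∣ Nat.card G := Subgroup.card_subgroup_dvd_card H
  refine ⟨Nat.Coprime.coprime_dvd_right hdvd hk, Nat.ModEq.of_dvd hdvd hke, ?_⟩
  intro h hh
  apply Subtype.ext
  have h1 : orderOf (h : G) = orderOf h := Subgroup.orderOf_coe h
  have h2 := hk₂ (h : G) (by rw [h1]; exact hh)
  exact h2

/-- The permutation of `Irr(G)` induced by a power map coprime to `|G|`. -/
noncomputable def powIrr [Finite G] (k : ℕ) (hk : Nat.Coprime k (Nat.card G))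
    (χ : IrrCharacter G) : IrrCharacter G :=
  ⟨fun g => (χ : G → ℂ) (g ^ k),
    (Helper11.char_pow_coprime k hk (isCharacter_of_isIrrCharacter χ.2)).2 χ.2⟩

theorem powIrr_apply [Finite G] (k : ℕ) (hk : Nat.Coprime k (Nat.card G))
    (χ : IrrCharacter G) (g : G) : (powIrr k hk χ : G → ℂ) g = (χ : G → ℂ) (g ^ k) := rfl

theorem powIrr_injective [Finite G] (k : ℕ) (hk : Nat.Coprime k (Nat.card G)) :
    Function.Injective (powIrr (G := G) k hk) := by
  intro χ χ' h
  apply Subtype.ext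
  funext g
  have h1 := congrFun (congrArg Subtype.val h) ((powCoprime hk.symm).symm g)
  have h2 : ((powCoprime hk.symm).symm g) ^ k = g := (powCoprime hk.symm).apply_symm_apply g
  have h3 : (χ : G → ℂ) (((powCoprime hk.symm).symm g) ^ k)
      = (χ' : G → ℂ) (((powCoprime hk.symm).symm g) ^ k) := h1
  rw [h2] at h3
  exact h3

noncomputable def powPerm [Fintype G] (k : ℕ) (hk : Nat.Coprime k (Nat.card G)) :
    Equiv.Perm (IrrCharacter G) :=
  Equiv.ofBijective (powIrr k hk) (Finite.injective_iff_bijective.mp (powIrr_injective k hk))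

theorem powPerm_apply [Fintype G] (k : ℕ) (hk : Nat.Coprime k (Nat.card G))
    (χ : IrrCharacter G) (g : G) : (powPerm k hk χ : G → ℂ) g = (χ : G → ℂ) (g ^ k) := rfl

theorem powPerm_pow_apply [Fintype G] (k : ℕ) (hk : Nat.Coprime k (Nat.card G)) (n : ℕ) :
    ∀ (χ : IrrCharacter G) (g : G),
      (((powPerm k hk) ^ n) χ : G → ℂ) g = (χ : G → ℂ) (g ^ (k ^ n)) := by
  induction n with
  | zero => intro χ g; simp
  | succ n ih =>
    intro χ g
    rw [pow_succ, Equiv.Perm.mul_apply, ih, powPerm_apply, ← pow_mul, ← pow_succ]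

theorem powPerm_pow_two_pow [Fintype G] (k e : ℕ) (hk : Nat.Coprime k (Nat.card G))
    (hke : k ^ (2 ^ e) ≡ 1 [MOD Nat.card G]) : (powPerm (G := G) k hk) ^ (2 ^ e) = 1 := by
  apply Equiv.ext
  intro χ
  apply Subtype.ext
  funext g
  rw [powPerm_pow_apply, pow_pow_two_pow_eq k e hke]
  rfl

theorem powPerm_eq_iff [Fintype G] (k : ℕ) (hk : Nat.Coprime k (Nat.card G))
    (χ : IrrCharacter G) :
    powPerm k hk χ = χ ↔ ∀ g : G, (χ : G → ℂ) (g ^ k) = (χ : G → ℂ) g := by
  constructor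
  · intro h g
    exact congrFun (congrArg Subtype.val h) g
  · intro h
    apply Subtype.ext
    funext g
    exact h g

end Sigma

section Over

variable {G : Type u} [Group G] [Fintype G] (N : Subgroup G) [hN : N.Normal] [Fintype N]

omit hN [Fintype G] in
theorem classInner_restrict_pow (k : ℕ) (hk : Nat.Coprime k (Nat.card G)) (φ : G → ℂ)
    (θ : N → ℂ) (hθ : ∀ n : N, θ (n ^ k) = θ n) :
    classInner (fun n : N => φ ((n : G) ^ k)) θ = classInner (fun n : N => φ n) θ := by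
  have hkN : Nat.Coprime k (Nat.card N) :=
    Nat.Coprime.coprime_dvd_right (Subgroup.card_subgroup_dvd_card N) hk
  have h1 := classInner_pow k hkN (fun n : N => φ n) θ
  have h2 : (fun g : N => θ (g ^ k)) = θ := funext hθ
  rw [h2] at h1
  exact h1

/-- A character of `N` fixed by the power map has a fixed character of `G` over it. -/
theorem exists_sigma_fixed_over (hodd : Odd N.index) (k e : ℕ)
    (hk : Nat.Coprime k (Nat.card G)) (hke : k ^ (2 ^ e) ≡ 1 [MOD Nat.card G])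
    (θ : IrrCharacter N) (hθ : ∀ n : N, (θ : N → ℂ) (n ^ k) = (θ : N → ℂ) n) :
    ∃ χ : IrrCharacter G, classInner (fun n : N => (χ : G → ℂ) n) (θ : N → ℂ) ≠ 0 ∧
      ∀ g : G, (χ : G → ℂ) (g ^ k) = (χ : G → ℂ) g := by
  classical
  have he : ∀ χ : IrrCharacter G, ∃ m : ℕ,
      classInner (fun n : N => (χ : G → ℂ) n) (θ : N → ℂ) = m := fun χ =>
    classInner_char_nat (isCharacter_restrict N (isCharacter_of_isIrrCharacter χ.2))
      (isCharacter_of_isIrrCharacter θ.2)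
  choose m hm using he
  have hΘ : IsCharacter G (indFun N (θ : N → ℂ)) :=
    isCharacter_indFun N (isCharacter_of_isIrrCharacter θ.2)
  have hdec := classFun_eq_sum_classInner (isClassFunction_of_isCharacter hΘ)
  have hc : ∀ χ : IrrCharacter G, classInner (indFun N (θ : N → ℂ)) (χ : G → ℂ) = m χ := by
    intro χ
    rw [frobenius_reciprocity N (θ : N → ℂ) (χ : G → ℂ)
      (isClassFunction_of_isCharacter (isCharacter_of_isIrrCharacter χ.2)),
      classInner_conj_symm (fun n : N => (χ : G → ℂ) n) (θ : N → ℂ), hm, Complex.conj_natCast]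
  have h1 : (N.index : ℂ) * (θ : N → ℂ) 1
      = ∑ χ : IrrCharacter G, (m χ : ℂ) * (χ : G → ℂ) 1 := by
    rw [← indFun_one_apply]
    have h := congrFun hdec 1
    rw [Finset.sum_apply] at h
    rw [h]
    apply Finset.sum_congr rfl
    intro χ _
    rw [Pi.smul_apply, smul_eq_mul, hc]
  have h2 : N.index * charDegree (θ : N → ℂ)
      = ∑ χ : IrrCharacter G, m χ * charDegree (χ : G → ℂ) := by
    have h3 : ((N.index * charDegree (θ : N → ℂ) : ℕ) : ℂ)
        = ((∑ χ : IrrCharacter G, m χ * charDegree (χ : G → ℂ) : ℕ) : ℂ) := by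
      push_cast
      rw [← irr_one_eq_degree θ, h1]
      apply Finset.sum_congr rfl
      intro χ _
      rw [irr_one_eq_degree χ]
    exact_mod_cast h3
  have h4 : ∀ χ : IrrCharacter G, m χ * charDegree (χ : G → ℂ)
      = (m χ) ^ 2 * (charDegree (θ : N → ℂ) * (stabChar N (θ : N → ℂ)).index) := by
    intro χ
    by_cases h0 : m χ = 0
    · rw [h0]
      simp
    · rw [cliff_degree_stab N χ θ (m χ) (hm χ) h0]
      ring
  have h5 : N.index * charDegree (θ : N → ℂ)
      = (∑ χ : IrrCharacter G, (m χ) ^ 2) * (stabChar N (θ : N → ℂ)).index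
        * charDegree (θ : N → ℂ) := by
    rw [h2, Finset.sum_congr rfl (fun χ _ => h4 χ), ← Finset.sum_mul]
    ring
  have hd : 0 < charDegree (θ : N → ℂ) := irr_degree_pos θ
  have h6 : N.index = (∑ χ : IrrCharacter G, (m χ) ^ 2) * (stabChar N (θ : N → ℂ)).index :=
    Nat.eq_of_mul_eq_mul_right hd h5
  have h7 : (∑ χ : IrrCharacter G, (m χ) ^ 2) % 2 = 1 := by
    rw [h6] at hodd
    exact Nat.odd_iff.mp (Nat.odd_mul.mp hodd).1
  have hinv : ∀ χ : IrrCharacter G, (m (powPerm k hk χ)) ^ 2 = (m χ) ^ 2 := by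
    intro χ
    have h8 : (m (powPerm k hk χ) : ℂ) = (m χ : ℂ) := by
      rw [← hm, ← hm]
      exact classInner_restrict_pow N k hk (χ : G → ℂ) (θ : N → ℂ) hθ
    have h9 : m (powPerm k hk χ) = m χ := by exact_mod_cast h8
    rw [h9]
  obtain ⟨χ, hχfix, hχodd⟩ := exists_fixed_odd (powPerm k hk) e
    (powPerm_pow_two_pow k e hk hke) (fun χ => (m χ) ^ 2) hinv h7
  refine ⟨χ, ?_, (powPerm_eq_iff k hk χ).mp hχfix⟩
  rw [hm]
  have hne : m χ ≠ 0 := by
    rintro h0
    rw [h0] at hχodd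
    simp at hχodd
  exact_mod_cast hne

/-- A fixed irreducible character of `G` containing the principal character of `N` (of odd
index) is principal. -/
theorem eq_one_of_sigma_fixed (hodd : Odd N.index) (k : ℕ)
    (hk₂ : ∀ g : G, Odd (orderOf g) → g ^ k = g⁻¹) (ξ : IrrCharacter G)
    (hξ : ∀ g : G, (ξ : G → ℂ) (g ^ k) = (ξ : G → ℂ) g)
    (hcon : classInner (fun n : N => (ξ : G → ℂ) n) (fun _ => 1) ≠ 0) :
    (ξ : G → ℂ) = fun _ => 1 := by
  obtain ⟨e', -, hres, -⟩ := clifford_invariant N (fun _ => 1) (Helper1.isIrrCharacter_one N)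
    (fun g n => rfl) (ξ : G → ℂ) ξ.2 hcon
  have hker : N ≤ irrKer ξ := by
    intro x hx
    rw [mem_irrKer]
    have h1 := congrFun hres ⟨x, hx⟩
    have h2 := congrFun hres 1
    exact h1.trans h2.symm
  obtain ⟨ψ, hψ⟩ := exists_deflate ξ N hker
  have hreal : ∀ q : G ⧸ N, ((ψ : G ⧸ N → ℂ) q).im = 0 := by
    intro q
    induction q using QuotientGroup.induction_on with
    | H g =>
      obtain ⟨h, hho, hgh⟩ := exists_odd_coset_rep N hodd g
      have e1 : (QuotientGroup.mk g : G ⧸ N) = QuotientGroup.mk h := QuotientGroup.eq.mpr hgh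
      rw [e1, hψ]
      apply Complex.conj_eq_iff_im.mp
      rw [← irr_inv ξ h, ← hk₂ h hho, hξ]
  have hoddQ : Odd (Nat.card (G ⧸ N)) := hodd
  have h1 := Cfsg.Agent.S0161.result hoddQ ψ hreal
  funext g
  rw [← hψ g, h1]

/-- Parity of the inner product of the restrictions of two fixed characters. -/
theorem sigma_inner_parity (hodd : Odd N.index) (k e : ℕ) (hk : Nat.Coprime k (Nat.card G))
    (hke : k ^ (2 ^ e) ≡ 1 [MOD Nat.card G]) (hk₂ : ∀ g : G, Odd (orderOf g) → g ^ k = g⁻¹)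
    (χ₁ χ₂ : IrrCharacter G) (h₁ : ∀ g : G, (χ₁ : G → ℂ) (g ^ k) = (χ₁ : G → ℂ) g)
    (h₂ : ∀ g : G, (χ₂ : G → ℂ) (g ^ k) = (χ₂ : G → ℂ) g) :
    ∃ m : ℕ, classInner (fun n : N => (χ₁ : G → ℂ) n) (fun n : N => (χ₂ : G → ℂ) n) = m ∧
      m % 2 = if χ₁ = χ₂ then 1 else 0 := by
  classical
  obtain ⟨ψ, hψ⟩ : ∃ ψ : G → ℂ, ψ = (χ₁ : G → ℂ) * (fun g => conj ((χ₂ : G → ℂ) g)) :=
    ⟨_, rfl⟩
  have hψa : ∀ g, ψ g = (χ₁ : G → ℂ) g * conj ((χ₂ : G → ℂ) g) := fun g => by
    rw [hψ]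
    rfl
  have hψc : IsCharacter G ψ := by
    rw [hψ]
    exact isCharacter_mul (isCharacter_of_isIrrCharacter χ₁.2)
      (isCharacter_of_isIrrCharacter (isIrrCharacter_conj χ₂.2))
  have hψσ : (fun g => ψ (g ^ k)) = ψ := by
    funext g
    rw [hψa, hψa, h₁, h₂]
  have hc : ∀ ξ : IrrCharacter G, ∃ c : ℕ, classInner ψ (ξ : G → ℂ) = c := fun ξ =>
    classInner_char_nat hψc (isCharacter_of_isIrrCharacter ξ.2)
  choose c hc using hc
  have ha : ∀ ξ : IrrCharacter G, ∃ a : ℕ,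
      classInner (fun n : N => (ξ : G → ℂ) n) (fun _ => 1) = a := fun ξ =>
    classInner_char_nat (isCharacter_restrict N (isCharacter_of_isIrrCharacter ξ.2))
      (isCharacter_of_isIrrCharacter (Helper1.isIrrCharacter_one N))
  choose a ha using ha
  have hdec := classFun_eq_sum_classInner (isClassFunction_of_isCharacter hψc)
  have hψn : ∀ g : G, ψ g = ∑ ξ : IrrCharacter G, (c ξ : ℂ) * (ξ : G → ℂ) g := by
    intro g
    have h := congrFun hdec g
    rw [Finset.sum_apply] at h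
    rw [h]
    apply Finset.sum_congr rfl
    intro ξ _
    rw [Pi.smul_apply, smul_eq_mul, hc]
  have hI : classInner (fun n : N => (χ₁ : G → ℂ) n) (fun n : N => (χ₂ : G → ℂ) n)
      = ((∑ ξ : IrrCharacter G, c ξ * a ξ : ℕ) : ℂ) := by
    have h0 : classInner (fun n : N => (χ₁ : G → ℂ) n) (fun n : N => (χ₂ : G → ℂ) n)
        = (Nat.card N : ℂ)⁻¹ * ∑ n : N, ψ n := by
      show (Nat.card N : ℂ)⁻¹ * ∑ n : N, (χ₁ : G → ℂ) n * conj ((χ₂ : G → ℂ) n) = _
      congr 1
      apply Finset.sum_congr rfl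
      intro n _
      rw [hψa]
    have h00 : ∑ n : N, ψ n = ∑ n : N, ∑ ξ : IrrCharacter G, (c ξ : ℂ) * (ξ : G → ℂ) n :=
      Finset.sum_congr rfl (fun n _ => hψn (n : G))
    rw [h0, h00, Finset.sum_comm, Finset.mul_sum]
    push_cast
    apply Finset.sum_congr rfl
    intro ξ _
    rw [← Finset.mul_sum, mul_left_comm, ← ha]
    congr 1
    show _ = (Nat.card N : ℂ)⁻¹ * ∑ n : N, (ξ : G → ℂ) n * conj (1 : ℂ)
    congr 1
    apply Finset.sum_congr rfl
    intro n _
    rw [map_one, mul_one]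
  refine ⟨∑ ξ : IrrCharacter G, c ξ * a ξ, hI, ?_⟩
  have hinv : ∀ ξ : IrrCharacter G,
      c (powPerm k hk ξ) * a (powPerm k hk ξ) = c ξ * a ξ := by
    intro ξ
    have h1 : (c (powPerm k hk ξ) : ℂ) = c ξ := by
      rw [← hc, ← hc]
      have h2 := classInner_pow k hk ψ (ξ : G → ℂ)
      rw [hψσ] at h2
      exact h2
    have h3 : (a (powPerm k hk ξ) : ℂ) = a ξ := by
      rw [← ha, ← ha]
      exact classInner_restrict_pow N k hk (ξ : G → ℂ) (fun _ => 1) (fun _ => rfl)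
    have h4 : c (powPerm k hk ξ) = c ξ := by exact_mod_cast h1
    have h5 : a (powPerm k hk ξ) = a ξ := by exact_mod_cast h3
    rw [h4, h5]
  have hfix0 : ∀ ξ : IrrCharacter G, powPerm k hk ξ = ξ → ξ ≠ Helper1.trivIrr G →
      c ξ * a ξ = 0 := by
    intro ξ hξ hne
    by_contra h0
    have ha0 : a ξ ≠ 0 := fun h => h0 (by rw [h, mul_zero])
    apply hne
    apply Subtype.ext
    apply eq_one_of_sigma_fixed N hodd k hk₂ ξ ((powPerm_eq_iff k hk ξ).mp hξ)
    rw [ha]
    exact_mod_cast ha0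
  have htriv : powPerm k hk (Helper1.trivIrr G) = Helper1.trivIrr G := by
    rw [powPerm_eq_iff]
    intro g
    rfl
  rw [sum_mod_two_of_fixed_single (powPerm k hk) e (powPerm_pow_two_pow k e hk hke)
    (fun ξ => c ξ * a ξ) hinv (Helper1.trivIrr G) hfix0 htriv]
  have hat : a (Helper1.trivIrr G) = 1 := by
    have h1 : (a (Helper1.trivIrr G) : ℂ) = 1 := by
      rw [← ha]
      show (Nat.card N : ℂ)⁻¹ * ∑ n : N, (1 : ℂ) * conj (1 : ℂ) = 1
      rw [map_one, mul_one, Finset.sum_const, Finset.card_univ, nsmul_eq_mul, mul_one,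
        ← Nat.card_eq_fintype_card]
      exact inv_mul_cancel₀ (Nat.cast_ne_zero.mpr Nat.card_pos.ne')
    exact_mod_cast h1
  have hct : (c (Helper1.trivIrr G) : ℂ) = if χ₁ = χ₂ then 1 else 0 := by
    rw [← hc, ← irr_classInner χ₁ χ₂]
    show (Nat.card G : ℂ)⁻¹ * ∑ g : G, ψ g * conj (1 : ℂ)
      = (Nat.card G : ℂ)⁻¹ * ∑ g : G, (χ₁ : G → ℂ) g * conj ((χ₂ : G → ℂ) g)
    congr 1
    apply Finset.sum_congr rfl
    intro g _
    rw [map_one, mul_one, hψa]
  rw [hat, mul_one]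
  by_cases h : χ₁ = χ₂
  · rw [if_pos h] at hct ⊢
    have h9 : c (Helper1.trivIrr G) = 1 := by exact_mod_cast hct
    rw [h9]
  · rw [if_neg h] at hct ⊢
    have h9 : c (Helper1.trivIrr G) = 0 := by exact_mod_cast hct
    rw [h9]

omit [Fintype G] in
theorem classInner_restrict_conjChar (χ : IrrCharacter G) (θ : N → ℂ) (g : G) :
    classInner (fun n : N => (χ : G → ℂ) n) (conjChar N θ g)
      = classInner (fun n : N => (χ : G → ℂ) n) θ := by
  have h1 := classInner_conjChar N (fun n : N => (χ : G → ℂ) n) θ g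
  have h2 : conjChar N (fun n : N => (χ : G → ℂ) n) g = fun n : N => (χ : G → ℂ) n := by
    funext n
    rw [conjChar_apply]
    exact irr_conj χ (n : G) g
  rw [h2] at h1
  exact h1

/-- Clifford: the inner product of the restrictions to `N` of two irreducible characters, in
terms of their multiplicities over a common constituent. -/
theorem clifford_inner (χ₁ χ₂ : IrrCharacter G) (θ : IrrCharacter N) (e₁ e₂ : ℕ)
    (he₁ : classInner (fun n : N => (χ₁ : G → ℂ) n) (θ : N → ℂ) = e₁)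
    (he₂ : classInner (fun n : N => (χ₂ : G → ℂ) n) (θ : N → ℂ) = e₂) (h1 : e₁ ≠ 0) :
    ∃ t : ℕ, classInner (fun n : N => (χ₁ : G → ℂ) n) (fun n : N => (χ₂ : G → ℂ) n)
        = ((t * (e₁ * e₂) : ℕ) : ℂ) ∧
      classInner (fun n : N => (χ₁ : G → ℂ) n) (fun n : N => (χ₁ : G → ℂ) n)
        = ((t * (e₁ * e₁) : ℕ) : ℂ) := by
  classical
  have hχ₁N : IsCharacter N (fun n : N => (χ₁ : G → ℂ) n) :=
    isCharacter_restrict N (isCharacter_of_isIrrCharacter χ₁.2)
  have hdec := classFun_eq_sum_classInner (isClassFunction_of_isCharacter hχ₁N)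
  have hcon : classInner (fun n : N => (χ₁ : G → ℂ) n) (θ : N → ℂ) ≠ 0 := by
    rw [he₁]
    exact_mod_cast h1
  have key : ∀ (χ : IrrCharacter G) (e : ℕ),
      classInner (fun n : N => (χ : G → ℂ) n) (θ : N → ℂ) = e →
      classInner (fun n : N => (χ₁ : G → ℂ) n) (fun n : N => (χ : G → ℂ) n)
        = (((Finset.univ.filter (fun η : IrrCharacter N =>
            classInner (fun n : N => (χ₁ : G → ℂ) n) (η : N → ℂ) ≠ 0)).card * (e₁ * e) : ℕ) : ℂ) := by
    intro χ e he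
    have h2 : classInner (fun n : N => (χ₁ : G → ℂ) n) (fun n : N => (χ : G → ℂ) n)
        = ∑ η : IrrCharacter N, classInner (fun n : N => (χ₁ : G → ℂ) n) (η : N → ℂ)
          * classInner (η : N → ℂ) (fun n : N => (χ : G → ℂ) n) := by
      conv_lhs => rw [hdec]
      rw [classInner_sum_left]
      apply Finset.sum_congr rfl
      intro η _
      rw [classInner_smul_left]
    have h3 : ∀ η : IrrCharacter N, classInner (fun n : N => (χ₁ : G → ℂ) n) (η : N → ℂ)
          * classInner (η : N → ℂ) (fun n : N => (χ : G → ℂ) n)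
        = if classInner (fun n : N => (χ₁ : G → ℂ) n) (η : N → ℂ) ≠ 0
          then ((e₁ * e : ℕ) : ℂ) else 0 := by
      intro η
      by_cases hη : classInner (fun n : N => (χ₁ : G → ℂ) n) (η : N → ℂ) ≠ 0
      · rw [if_pos hη]
        obtain ⟨g, hg⟩ := Helper24.clifford_conj N (χ₁ : G → ℂ) χ₁.2 (θ : N → ℂ) θ.2 hcon η hη
        rw [classInner_conj_symm (fun n : N => (χ : G → ℂ) n) (η : N → ℂ), hg,
          classInner_restrict_conjChar, classInner_restrict_conjChar, he₁, he,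
          Complex.conj_natCast]
        push_cast
        rfl
      · rw [if_neg hη]
        push Not at hη
        rw [hη, zero_mul]
    rw [h2, Finset.sum_congr rfl (fun η _ => h3 η), Finset.sum_ite, Finset.sum_const,
      Finset.sum_const_zero, add_zero, nsmul_eq_mul]
    push_cast
    rfl
  exact ⟨_, key χ₂ e₂ he₂, key χ₁ e₁ he₁⟩

/-- At most one fixed irreducible character lies over a given irreducible character of a
normal subgroup of odd index. -/
theorem sigma_unique (hodd : Odd N.index) (k e : ℕ) (hk : Nat.Coprime k (Nat.card G))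
    (hke : k ^ (2 ^ e) ≡ 1 [MOD Nat.card G]) (hk₂ : ∀ g : G, Odd (orderOf g) → g ^ k = g⁻¹)
    (θ : IrrCharacter N) (χ₁ χ₂ : IrrCharacter G)
    (h₁ : ∀ g : G, (χ₁ : G → ℂ) (g ^ k) = (χ₁ : G → ℂ) g)
    (h₂ : ∀ g : G, (χ₂ : G → ℂ) (g ^ k) = (χ₂ : G → ℂ) g)
    (hθ₁ : classInner (fun n : N => (χ₁ : G → ℂ) n) (θ : N → ℂ) ≠ 0)
    (hθ₂ : classInner (fun n : N => (χ₂ : G → ℂ) n) (θ : N → ℂ) ≠ 0) : χ₁ = χ₂ := by
  obtain ⟨e₁, he₁⟩ := classInner_char_nat
    (isCharacter_restrict N (isCharacter_of_isIrrCharacter χ₁.2))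
    (isCharacter_of_isIrrCharacter θ.2)
  obtain ⟨e₂, he₂⟩ := classInner_char_nat
    (isCharacter_restrict N (isCharacter_of_isIrrCharacter χ₂.2))
    (isCharacter_of_isIrrCharacter θ.2)
  have h10 : e₁ ≠ 0 := by
    rintro rfl
    exact hθ₁ (by rw [he₁, Nat.cast_zero])
  have h20 : e₂ ≠ 0 := by
    rintro rfl
    exact hθ₂ (by rw [he₂, Nat.cast_zero])
  obtain ⟨t, ht12, ht11⟩ := clifford_inner N χ₁ χ₂ θ e₁ e₂ he₁ he₂ h10
  obtain ⟨t', -, ht22⟩ := clifford_inner N χ₂ χ₁ θ e₂ e₁ he₂ he₁ h20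
  obtain ⟨m11, hm11, hp11⟩ := sigma_inner_parity N hodd k e hk hke hk₂ χ₁ χ₁ h₁ h₁
  obtain ⟨m22, hm22, hp22⟩ := sigma_inner_parity N hodd k e hk hke hk₂ χ₂ χ₂ h₂ h₂
  obtain ⟨m12, hm12, hp12⟩ := sigma_inner_parity N hodd k e hk hke hk₂ χ₁ χ₂ h₁ h₂
  rw [if_pos rfl] at hp11 hp22
  have e11 : m11 = t * (e₁ * e₁) := by
    rw [hm11] at ht11
    exact_mod_cast ht11
  have e22 : m22 = t' * (e₂ * e₂) := by
    rw [hm22] at ht22
    exact_mod_cast ht22
  have e12 : m12 = t * (e₁ * e₂) := by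
    rw [hm12] at ht12
    exact_mod_cast ht12
  by_contra hne
  rw [if_neg hne] at hp12
  have o11 : Odd (t * (e₁ * e₁)) := by
    rw [← e11]
    exact Nat.odd_iff.mpr hp11
  have o22 : Odd (t' * (e₂ * e₂)) := by
    rw [← e22]
    exact Nat.odd_iff.mpr hp22
  have ot : Odd t := (Nat.odd_mul.mp o11).1
  have oe₁ : Odd e₁ := (Nat.odd_mul.mp (Nat.odd_mul.mp o11).2).1
  have oe₂ : Odd e₂ := (Nat.odd_mul.mp (Nat.odd_mul.mp o22).2).1
  have o12 : Odd (t * (e₁ * e₂)) := Nat.odd_mul.mpr ⟨ot, Nat.odd_mul.mpr ⟨oe₁, oe₂⟩⟩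
  rw [← e12] at o12
  have := Nat.odd_iff.mp o12
  omega

end Over

section Ext

variable {G : Type u} [Group G]

/-- Uniqueness of a fixed extension. -/
theorem sigma_ext_unique [Finite G] (N : Subgroup G) [hN : N.Normal] (hodd : Odd N.index)
    (k e : ℕ) (hk : Nat.Coprime k (Nat.card G)) (hke : k ^ (2 ^ e) ≡ 1 [MOD Nat.card G])
    (hk₂ : ∀ g : G, Odd (orderOf g) → g ^ k = g⁻¹) (θ : N → ℂ) (hθ : IsIrrCharacter N θ)
    (χ₁ χ₂ : G → ℂ) (h₁ : IsIrrCharacter G χ₁) (h₂ : IsIrrCharacter G χ₂)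
    (hσ₁ : ∀ g : G, χ₁ (g ^ k) = χ₁ g) (hσ₂ : ∀ g : G, χ₂ (g ^ k) = χ₂ g)
    (hr₁ : ∀ n : N, χ₁ n = θ n) (hr₂ : ∀ n : N, χ₂ n = θ n) : χ₁ = χ₂ := by
  classical
  letI : Fintype G := Fintype.ofFinite G
  letI : Fintype N := Fintype.ofFinite N
  have hcon : ∀ χ : G → ℂ, (∀ n : N, χ n = θ n) → classInner (fun n : N => χ n) θ ≠ 0 := by
    intro χ hr
    have h1 : (fun n : N => χ n) = θ := funext hr
    rw [h1]
    have h0 := irr_classInner (⟨θ, hθ⟩ : IrrCharacter N) ⟨θ, hθ⟩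
    rw [if_pos rfl] at h0
    have h2 : classInner θ θ = 1 := h0
    rw [h2]
    exact one_ne_zero
  have h3 := sigma_unique N hodd k e hk hke hk₂ ⟨θ, hθ⟩ ⟨χ₁, h₁⟩ ⟨χ₂, h₂⟩ hσ₁ hσ₂
    (hcon χ₁ hr₁) (hcon χ₂ hr₂)
  exact congrArg Subtype.val h3

/-- If a fixed irreducible character of `N` (odd index) extends to `G`, it has a fixed
extension. -/
theorem exists_sigma_fixed_extension [Finite G] (N : Subgroup G) [hN : N.Normal]
    (hodd : Odd N.index) (k : ℕ) (hk : Nat.Coprime k (Nat.card G))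
    (hk₂ : ∀ g : G, Odd (orderOf g) → g ^ k = g⁻¹) (θ : N → ℂ) (hθ : IsIrrCharacter N θ)
    (hθσ : ∀ n : N, θ (n ^ k) = θ n) (χ₀ : G → ℂ) (hχ₀ : IsIrrCharacter G χ₀)
    (hres : ∀ n : N, χ₀ n = θ n) :
    ∃ χ : G → ℂ, IsIrrCharacter G χ ∧ (∀ g, χ (g ^ k) = χ g) ∧ ∀ n : N, χ n = θ n := by
  have hd : θ 1 = (charDegree θ : ℂ) := irr_one_eq_degree (⟨θ, hθ⟩ : IrrCharacter N)
  have hχσ : IsIrrCharacter G (fun g => χ₀ (g ^ k)) :=
    (Helper11.char_pow_coprime k hk (isCharacter_of_isIrrCharacter hχ₀)).2 hχ₀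
  obtain ⟨β, hβN, hβ, -⟩ := exists_hom_of_two_char_extensions N θ hθ (charDegree θ) hd χ₀
    (fun g => χ₀ (g ^ k)) (isCharacter_of_isIrrCharacter hχ₀)
    (isCharacter_of_isIrrCharacter hχσ) hres (fun n => by
      have h1 := hres (n ^ k)
      rw [hθσ] at h1
      exact h1)
  obtain ⟨i, hi⟩ := hodd
  have hβpow : β ^ N.index = 1 := hom_pow_index_eq_one N β hβN
  obtain ⟨β₀, hβ₀⟩ : ∃ β₀ : G →* ℂˣ, β₀ = β ^ (i + 1) := ⟨_, rfl⟩
  have hsq : ∀ g : G, β₀ g * β₀ g = β g := by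
    intro g
    have h1 : (β ^ N.index) g = 1 := by rw [hβpow]; rfl
    rw [MonoidHom.pow_apply, hi] at h1
    rw [hβ₀, MonoidHom.pow_apply, ← pow_add]
    have h2 : i + 1 + (i + 1) = 2 * i + 1 + 1 := by ring
    rw [h2, pow_succ, h1, one_mul]
  have hβ₀N : ∀ n : N, β₀ n = 1 := by
    intro n
    rw [hβ₀, MonoidHom.pow_apply, hβN, one_pow]
  have hinv : ∀ g : G, β₀ (g ^ k) = (β₀ g)⁻¹ := by
    intro g
    obtain ⟨h, hho, hgh⟩ := exists_odd_coset_rep N (⟨i, hi⟩ : Odd N.index) g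
    have h1 : β₀ h = β₀ g := by
      have h2 := hβ₀N ⟨g⁻¹ * h, hgh⟩
      have h3 : β₀ (g⁻¹ * h) = 1 := h2
      rw [map_mul, map_inv, inv_mul_eq_one] at h3
      exact h3.symm
    rw [map_pow, ← h1, ← map_pow, hk₂ h hho, map_inv]
  refine ⟨fun g => ((β₀ g : ℂˣ) : ℂ) * χ₀ g, isIrrCharacter_hom_mul β₀ χ₀ hχ₀, ?_, ?_⟩
  · intro g
    show ((β₀ (g ^ k) : ℂˣ) : ℂ) * χ₀ (g ^ k) = ((β₀ g : ℂˣ) : ℂ) * χ₀ g
    rw [hβ g, hinv g, ← mul_assoc, ← Units.val_mul, ← hsq g, inv_mul_cancel_left]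
  · intro n
    show ((β₀ (n : G) : ℂˣ) : ℂ) * χ₀ n = θ n
    rw [hβ₀N n, Units.val_one, one_mul, hres]

/-- Solvable quotient of odd order: an invariant fixed irreducible character has a fixed
extension. -/
theorem sigma_ext_solvable (j : ℕ) : ∀ {G : Type u} [Group G] [Finite G] (N : Subgroup G)
    [hN : N.Normal], N.index = j → Odd N.index → Group.IsSolvable (G ⧸ N) → ∀ (k e : ℕ),
    Nat.Coprime k (Nat.card G) → k ^ (2 ^ e) ≡ 1 [MOD Nat.card G] →
    (∀ g : G, Odd (orderOf g) → g ^ k = g⁻¹) → ∀ (ϑ : N → ℂ), IsIrrCharacter N ϑ →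
    (∀ n : N, ϑ (n ^ k) = ϑ n) →
    (∀ (g : G) (n : N), ϑ ⟨g * n * g⁻¹, hN.conj_mem (n : G) n.2 g⟩ = ϑ n) →
    ∃ χ : G → ℂ, IsIrrCharacter G χ ∧ (∀ g, χ (g ^ k) = χ g) ∧ ∀ n : N, χ n = ϑ n := by
  induction j using Nat.strong_induction_on with
  | _ j ih =>
    intro G _ _ N hN hj hodd hsolv k e hk hke hk₂ ϑ hϑ hϑσ hinv
    by_cases htop : N = ⊤
    · have hmem : ∀ g : G, g ∈ N := fun g => by rw [htop]; trivial
      let f : G →* N :=
        { toFun := fun g => ⟨g, hmem g⟩, map_one' := rfl, map_mul' := fun _ _ => rfl }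
      have hf : Function.Surjective f := fun n => ⟨n, rfl⟩
      refine ⟨fun g => ϑ (f g), isIrrCharacter_comp_of_surjective f hf hϑ, ?_, fun n => rfl⟩
      intro g
      show ϑ (f (g ^ k)) = ϑ (f g)
      rw [map_pow, hϑσ]
    · obtain ⟨M, hMn, hNM, hMtop, g₀, hg₀⟩ := exists_normal_cyclic_quotient N hsolv htop
      haveI := hMn
      have hcyc : IsCyclic (G ⧸ M) := isCyclic_quotient_of_gen M g₀ hg₀
      have hidx : N.relIndex M * M.index = N.index := Subgroup.relIndex_mul_index hNM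
      have hMi : 1 < M.index := by
        have h0 : M.index ≠ 0 := Subgroup.index_ne_zero_of_finite
        have h1 : M.index ≠ 1 := fun h => hMtop (Subgroup.index_eq_one.mp h)
        omega
      have hNi : N.index ≠ 0 := Subgroup.index_ne_zero_of_finite
      have hlt : (N.subgroupOf M).index < j := by
        show N.relIndex M < j
        rw [← hj, ← hidx]
        have h2 : N.relIndex M ≠ 0 := fun h => hNi (by rw [← hidx, h, zero_mul])
        have h3 : 0 < N.relIndex M := Nat.pos_of_ne_zero h2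
        nlinarith
      have hodd' : Odd (N.subgroupOf M).index := by
        have h1 : Odd (N.relIndex M * M.index) := by rw [hidx]; exact hodd
        exact (Nat.odd_mul.mp h1).1
      have hsolv' : Group.IsSolvable (↥M ⧸ N.subgroupOf M) := by
        let φ : ↥M ⧸ N.subgroupOf M →* G ⧸ N :=
          QuotientGroup.map (N.subgroupOf M) N M.subtype (fun x hx => hx)
        have hφ : Function.Injective φ := by
          rw [injective_iff_map_eq_one]
          intro q
          induction q using QuotientGroup.induction_on with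
          | H x =>
            intro hx
            have hx' : ((x : G) : G ⧸ N) = 1 := hx
            rw [QuotientGroup.eq_one_iff] at hx' ⊢
            exact hx'
        exact Group.isSolvable_of_isSolvable_injective hφ
      obtain ⟨hkM, hkeM, hk₂M⟩ := sigma_hyp_subgroup M k e hk hke hk₂
      let f : N.subgroupOf M →* N :=
        { toFun := fun x => ⟨((x : M) : G), x.2⟩, map_one' := rfl, map_mul' := fun _ _ => rfl }
      have hf : Function.Surjective f := fun n => ⟨⟨⟨n, hNM n.2⟩, n.2⟩, rfl⟩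
      have hϑ' : IsIrrCharacter (N.subgroupOf M) (fun x => ϑ (f x)) :=
        isIrrCharacter_comp_of_surjective f hf hϑ
      have hϑσ' : ∀ x : N.subgroupOf M, (fun x => ϑ (f x)) (x ^ k) = (fun x => ϑ (f x)) x := by
        intro x
        show ϑ (f (x ^ k)) = ϑ (f x)
        rw [map_pow, hϑσ]
      have hinv' : ∀ (m : M) (x : N.subgroupOf M), (fun x => ϑ (f x))
          ⟨m * x * m⁻¹, (inferInstance : (N.subgroupOf M).Normal).conj_mem (x : M) x.2 m⟩
            = (fun x => ϑ (f x)) x := by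
        intro m x
        exact hinv (m : G) (f x)
      obtain ⟨η, hη, hησ, hηN⟩ := ih (N.subgroupOf M).index hlt (N.subgroupOf M) rfl hodd'
        hsolv' k e hkM hkeM hk₂M (fun x => ϑ (f x)) hϑ' hϑσ' hinv'
      have hηinv : ∀ g : G, conjChar M η g = η := by
        intro g
        apply sigma_ext_unique (N.subgroupOf M) hodd' k e hkM hkeM hk₂M (fun x => ϑ (f x)) hϑ'
          (conjChar M η g) η (isIrrCharacter_conjChar M hη g) hη ?_ hησ ?_ hηN
        · intro m
          rw [conjChar_apply, conjChar_apply]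
          have h1 : (⟨g * ((m ^ k : M) : G) * g⁻¹, hMn.conj_mem _ (m ^ k : M).2 g⟩ : M)
              = (⟨g * (m : G) * g⁻¹, hMn.conj_mem _ m.2 g⟩ : M) ^ k := by
            apply Subtype.ext
            show g * (m : G) ^ k * g⁻¹ = (g * (m : G) * g⁻¹) ^ k
            rw [conj_pow]
          rw [h1, hησ]
        · intro x
          have h1 : conjChar M η g (x : M)
              = η ((⟨⟨g * ((x : M) : G) * g⁻¹, hMn.conj_mem _ (x : M).2 g⟩,
                  hN.conj_mem _ x.2 g⟩ : N.subgroupOf M) : M) := rfl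
          rw [h1, hηN]
          exact hinv g (f x)
      obtain ⟨χ₀, hχ₀, hχ₀M⟩ := Cfsg.Agent.S0886.result M hcyc η hη
        (fun g m => congrFun (hηinv g) m)
      have hres : ∀ n : N, χ₀ n = ϑ n := by
        intro n
        have h2 := hχ₀M ⟨n, hNM n.2⟩
        have h3 := hηN ⟨⟨n, hNM n.2⟩, n.2⟩
        exact h2.trans h3
      exact exists_sigma_fixed_extension N hodd k hk hk₂ ϑ hϑ hϑσ χ₀ hχ₀ hres

/-- An invariant fixed irreducible character of a normal subgroup of odd index has a fixed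
extension. -/
theorem sigma_ext [Finite G] (N : Subgroup G) [hN : N.Normal] (hodd : Odd N.index)
    (k e : ℕ) (hk : Nat.Coprime k (Nat.card G)) (hke : k ^ (2 ^ e) ≡ 1 [MOD Nat.card G])
    (hk₂ : ∀ g : G, Odd (orderOf g) → g ^ k = g⁻¹) (ϑ : N → ℂ) (hϑ : IsIrrCharacter N ϑ)
    (hϑσ : ∀ n : N, ϑ (n ^ k) = ϑ n)
    (hinv : ∀ (g : G) (n : N), ϑ ⟨g * n * g⁻¹, hN.conj_mem (n : G) n.2 g⟩ = ϑ n) :
    ∃ χ : G → ℂ, IsIrrCharacter G χ ∧ (∀ g, χ (g ^ k) = χ g) ∧ ∀ n : N, χ n = ϑ n := by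
  have hsyl : ∀ p : ℕ, p.Prime → ∃ (P : Subgroup G) (hNP : N ≤ P) (η : P → ℂ),
      Nat.Coprime P.index p ∧ IsIrrCharacter P η ∧ ∀ n : N, η ⟨(n : G), hNP n.2⟩ = ϑ n := by
    intro p hp
    haveI : Fact p.Prime := ⟨hp⟩
    obtain ⟨P'⟩ : Nonempty (Sylow p (G ⧸ N)) := inferInstance
    obtain ⟨P, hP⟩ : ∃ P : Subgroup G, P = (P' : Subgroup (G ⧸ N)).comap (QuotientGroup.mk' N) :=
      ⟨_, rfl⟩
    have hNP : N ≤ P := by
      intro n hn
      rw [hP, Subgroup.mem_comap]
      have h1 : (QuotientGroup.mk' N) n = 1 := (QuotientGroup.eq_one_iff n).mpr hn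
      rw [h1]
      exact Subgroup.one_mem _
    have hPidx : P.index = (P' : Subgroup (G ⧸ N)).index := by
      rw [hP]
      exact Subgroup.index_comap_of_surjective _ (QuotientGroup.mk'_surjective N)
    have hcop : Nat.Coprime P.index p := by
      rw [hPidx]
      exact ((Nat.Prime.coprime_iff_not_dvd hp).mpr P'.not_dvd_index).symm
    have hidx : N.relIndex P * P.index = N.index := Subgroup.relIndex_mul_index hNP
    have hodd' : Odd (N.subgroupOf P).index := by
      have h1 : Odd (N.relIndex P * P.index) := by rw [hidx]; exact hodd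
      exact (Nat.odd_mul.mp h1).1
    have hPmem : ∀ y : G, y ∈ P → (QuotientGroup.mk' N) y ∈ (P' : Subgroup (G ⧸ N)) := by
      intro y hy
      rw [hP, Subgroup.mem_comap] at hy
      exact hy
    have hsolv' : Group.IsSolvable (↥P ⧸ N.subgroupOf P) := by
      let φ : ↥P ⧸ N.subgroupOf P →* G ⧸ N :=
        QuotientGroup.map (N.subgroupOf P) N P.subtype (fun x hx => hx)
      have hφ : Function.Injective φ := by
        rw [injective_iff_map_eq_one]
        intro q
        induction q using QuotientGroup.induction_on with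
        | H x =>
          intro hx
          have hx' : ((x : G) : G ⧸ N) = 1 := hx
          rw [QuotientGroup.eq_one_iff] at hx' ⊢
          exact hx'
      have hrange : ∀ q : ↥P ⧸ N.subgroupOf P, φ q ∈ (P' : Subgroup (G ⧸ N)) := by
        intro q
        induction q using QuotientGroup.induction_on with
        | H x => exact hPmem (x : G) x.2
      let φ' : ↥P ⧸ N.subgroupOf P →* ↥(P' : Subgroup (G ⧸ N)) :=
        φ.codRestrict (P' : Subgroup (G ⧸ N)) hrange
      have hφ' : Function.Injective φ' := by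
        intro a b hab
        apply hφ
        exact congrArg Subtype.val hab
      have hpg : IsPGroup p (↥P ⧸ N.subgroupOf P) := P'.isPGroup'.of_injective φ' hφ'
      haveI : Group.IsNilpotent (↥P ⧸ N.subgroupOf P) := hpg.isNilpotent
      infer_instance
    obtain ⟨hkP, hkeP, hk₂P⟩ := sigma_hyp_subgroup P k e hk hke hk₂
    let f : N.subgroupOf P →* N :=
      { toFun := fun x => ⟨((x : P) : G), x.2⟩, map_one' := rfl, map_mul' := fun _ _ => rfl }
    have hf : Function.Surjective f := fun n => ⟨⟨⟨n, hNP n.2⟩, n.2⟩, rfl⟩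
    have hϑ' : IsIrrCharacter (N.subgroupOf P) (fun x => ϑ (f x)) :=
      isIrrCharacter_comp_of_surjective f hf hϑ
    have hϑσ' : ∀ x : N.subgroupOf P, (fun x => ϑ (f x)) (x ^ k) = (fun x => ϑ (f x)) x := by
      intro x
      show ϑ (f (x ^ k)) = ϑ (f x)
      rw [map_pow, hϑσ]
    have hinv' : ∀ (m : P) (x : N.subgroupOf P), (fun x => ϑ (f x))
        ⟨m * x * m⁻¹, (inferInstance : (N.subgroupOf P).Normal).conj_mem (x : P) x.2 m⟩
          = (fun x => ϑ (f x)) x := by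
      intro m x
      exact hinv (m : G) (f x)
    obtain ⟨η, hη, -, hηN⟩ := sigma_ext_solvable (N.subgroupOf P).index (N.subgroupOf P) rfl
      hodd' hsolv' k e hkP hkeP hk₂P (fun x => ϑ (f x)) hϑ' hϑσ' hinv'
    exact ⟨P, hNP, η, hcop, hη, fun n => hηN ⟨⟨n, hNP n.2⟩, n.2⟩⟩
  obtain ⟨χ₀, hχ₀, hres⟩ := exists_irr_extension_of_sylow N ϑ hϑ hinv hsyl
  exact exists_sigma_fixed_extension N hodd k hk hk₂ ϑ hϑ hϑσ χ₀ hχ₀ hres

/-- Main theorem: over a fixed irreducible character of a normal subgroup of odd index lies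
exactly one fixed irreducible character; it is an extension when `θ` is invariant. -/
theorem sigma_over_main [Fintype G] (N : Subgroup G) [hN : N.Normal] [Fintype N]
    (hidx : Odd N.index) (k e : ℕ) (hk : Nat.Coprime k (Nat.card G))
    (hke : k ^ (2 ^ e) ≡ 1 [MOD Nat.card G]) (hk₂ : ∀ g : G, Odd (orderOf g) → g ^ k = g⁻¹)
    (θ : IrrCharacter N) (hθ : ∀ n : N, (θ : N → ℂ) (n ^ k) = (θ : N → ℂ) n) :
    ∃ χ : IrrCharacter G, (classInner (fun n : N => (χ : G → ℂ) n) (θ : N → ℂ) ≠ 0 ∧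
      (∀ g : G, (χ : G → ℂ) (g ^ k) = (χ : G → ℂ) g) ∧
      ((∀ g : G, ∀ n : N, (θ : N → ℂ) ⟨g * n * g⁻¹, hN.conj_mem n n.2 g⟩ = (θ : N → ℂ) n) →
        ∀ n : N, (χ : G → ℂ) n = (θ : N → ℂ) n)) ∧
      ∀ χ' : IrrCharacter G, classInner (fun n : N => (χ' : G → ℂ) n) (θ : N → ℂ) ≠ 0 →
        (∀ g : G, (χ' : G → ℂ) (g ^ k) = (χ' : G → ℂ) g) → χ' = χ := by
  obtain ⟨χ, hχθ, hχσ⟩ := exists_sigma_fixed_over N hidx k e hk hke θ hθ
  refine ⟨χ, ⟨hχθ, hχσ, ?_⟩, ?_⟩
  · intro hinv n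
    obtain ⟨χE, hχE, hχEσ, hχEres⟩ := sigma_ext N hidx k e hk hke hk₂ (θ : N → ℂ) θ.2 hθ hinv
    have hcon : classInner (fun n : N => χE n) (θ : N → ℂ) ≠ 0 := by
      have h1 : (fun n : N => χE n) = (θ : N → ℂ) := funext hχEres
      rw [h1]
      have h0 := irr_classInner θ θ
      rw [if_pos rfl] at h0
      rw [h0]
      exact one_ne_zero
    have h2 := sigma_unique N hidx k e hk hke hk₂ θ ⟨χE, hχE⟩ χ hχEσ hχσ hcon hχθ
    rw [← h2]
    exact hχEres n
  · intro χ' hχ'θ hχ'σ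
    exact sigma_unique N hidx k e hk hke hk₂ θ χ' χ hχ'σ hχσ hχ'θ hχθ

end Ext

end Cfsg.Agent.Helper7
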